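import Cfsg.Agent.Co1Type.Two

/-!
The outer classes of a group of Conway type do not meet the class of the central involution.
-/

set_option autoImplicit false
set_option maxRecDepth 100000
set_option synthInstance.maxSize 4000

namespace Cfsg.Agent.Co1Type

open Cfsg.Agent.ExtraTwo Cfsg.Agent.LargeExtra Cfsg.Agent.TTClass.OrthF2

/-- A vector outside the orthogonal of `s8`, `wa`, `da`. -/
def g1 : V8 := mk8 0 0 0 0 0 1 0 0

/-- A vector outside the orthogonal of `s8`, `wa`, `da`. -/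
def g2 : V8 := mk8 0 0 0 0 0 0 1 0

theorem g_data : (q8 f8 = 0 ∧ b8 f8 s8 = 1 ∧ b8 f8 wa = 0 ∧ b8 f8 da = 0 ∧ b8 f8 E0 = 0 ∧
      b8 f8 F0 = 0) ∧
    (q8 g1 = 0 ∧ b8 g1 s8 = 0 ∧ b8 g1 wa = 1 ∧ b8 g1 da = 0 ∧ b8 g1 E0 = 0 ∧ b8 g1 F0 = 0) ∧
    (q8 g2 = 0 ∧ b8 g2 s8 = 0 ∧ b8 g2 wa = 0 ∧ b8 g2 da = 1 ∧ b8 g2 E0 = 0 ∧ b8 g2 F0 = 0) ∧
    b8 f8 g1 = 0 ∧ b8 f8 g2 = 0 ∧ b8 g1 g2 = 0 := by decide +kernel

theorem candA0 : ∀ x, q8 x = 0 → b8 x s8 = 1 → b8 x wa = 0 → b8 x da = 0 → b8 x E0 = 0 →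
    b8 x F0 = 0 → x = x (.inl 1) • wa + x (.inl 2) • da + f8 := by decide +kernel

theorem candA1 : ∀ x, q8 x = 0 → b8 x s8 = 0 → b8 x wa = 1 → b8 x da = 0 → b8 x E0 = 0 →
    b8 x F0 = 0 → x = x (.inl 0) • s8 + x (.inl 2) • da + g1 := by decide +kernel

theorem candA2 : ∀ x, q8 x = 0 → b8 x s8 = 0 → b8 x wa = 0 → b8 x da = 1 → b8 x E0 = 0 →
    b8 x F0 = 0 → x = x (.inl 0) • s8 + x (.inl 1) • wa + g2 := by decide +kernel

theorem relA01 : ∀ a b c d : ZMod 2, b8 (a • wa + b • da + f8) (c • s8 + d • da + g1) = 0 →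
    c = a := by decide +kernel

theorem relA02 : ∀ a b c d : ZMod 2, b8 (a • wa + b • da + f8) (c • s8 + d • wa + g2) = 0 →
    c = b := by decide +kernel

theorem relA12 : ∀ a b c d : ZMod 2, b8 (a • s8 + b • da + g1) (c • s8 + d • wa + g2) = 0 →
    d = b := by decide +kernel

theorem candD : ∀ x, q8 x = 1 → b8 x s8 = 0 → b8 x E0 = 0 → b8 x F0 = 0 → b8 x E1 = 0 →
    b8 x E2 = 0 → b8 x wc = 1 → x = x (.inl 0) • s8 + x (.inr 1) • wc + dc := by decide +kernel

theorem candF : ∀ x, q8 x = 0 → b8 x s8 = 1 → b8 x E0 = 0 → b8 x F0 = 0 → b8 x E1 = 0 →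
    b8 x E2 = 0 →
    x = q8 (b8 x dc • wc + b8 x wc • dc) • s8 + f8 + (b8 x dc • wc + b8 x wc • dc) := by
  decide +kernel

theorem coord_w : ∀ x, x = wc ∨ x = wc + s8 → ∀ y, y = wc ∨ y = wc + s8 →
    x (.inl 0) = y (.inl 0) → x = y := by
  rintro x (rfl | rfl) y (rfl | rfl) e <;> first | rfl | exact absurd e (by decide +kernel)

theorem f_data : b8 f8 E0 = 0 ∧ b8 f8 F0 = 0 ∧ b8 f8 E1 = 0 ∧ b8 f8 E2 = 0 := by decide +kernel

variable {G : Type*} [Group G] [Finite G] {z : G} {Q : Subgroup G} {φ : G → V8}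
  {g s : G}

/-- The fixed points of an involution on `Q`. -/
theorem card_comm_ge (h : Frame z Q q8 b8 φ) {x : G} (hx : x * z = z * x) (hx2 : x * x = 1) :
    16 ≤ Nat.card {a : G // a ∈ Q ∧ a * x = x * a} := by
  classical
  let N : V8 →+ V8 := AddMonoidHom.mk' (fun v => h.act x v + v) fun a b => by
    rw [h.act_add hx]; abel
  have hxx : ∀ v, h.act x (h.act x v) = v := fun v => by rw [← h.act_mul hx hx, hx2, h.act_one]
  have hle : N.range ≤ N.ker := by
    rintro _ ⟨v, rfl⟩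
    show h.act x (h.act x v + v) + (h.act x v + v) = 0
    rw [h.act_add hx, hxx, add_comm v, add_self']
  have h1 := AddSubgroup.card_mul_index N.ker
  rw [AddSubgroup.index_ker] at h1
  have h256 : Nat.card V8 = 256 := by simp [Nat.card_eq_fintype_card]
  rw [h256] at h1
  have hW : Nat.card N.range ≤ 16 := by
    have := Nat.card_le_card_of_injective (AddSubgroup.inclusion hle)
      (AddSubgroup.inclusion_injective hle)
    nlinarith
  let ψ : Q → G := fun a => x * a * x⁻¹ * (a : G)⁻¹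
  let R := Set.range ψ
  let S := {a : G // a ∈ Q ∧ a * x = x * a}
  have hR : Nat.card R ≤ 32 := by
    let F : R → N.range × Bool := fun r =>
      (⟨φ r.1, by
        obtain ⟨a, ha⟩ := r.2
        refine ⟨φ a, ?_⟩
        show h.act x (φ a) + φ a = _
        rw [← ha, h.map_mul _ (h.conj_memQ hx a.2) _ (inv_mem a.2), h.map_inv a.2, h.act_map hx a.2]⟩,
        decide (r.1 = (h.map_surj (φ r.1)).choose))
    have hF : Function.Injective F := by
      intro r r' e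
      have e1 : φ r.1 = φ r'.1 := congrArg (fun p => p.1.1) e
      have e2 := congrArg Prod.snd e
      simp only [F, e1, decide_eq_decide] at e2
      have mem : ∀ r : R, r.1 ∈ Q := fun r => by
        obtain ⟨a, ha⟩ := r.2
        exact ha ▸ mul_mem (h.conj_memQ hx a.2) (inv_mem a.2)
      have hc := (h.map_surj (φ r'.1)).choose_spec
      rcases h.eq_or_of_map_eq (mem r) hc.1 (e1.trans hc.2.symm) with k | k
      · exact Subtype.ext (k.trans (e2.1 k).symm)
      · rcases h.eq_or_of_map_eq (mem r') hc.1 hc.2.symm with k' | k'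
        · exact Subtype.ext ((e2.2 k').trans k'.symm)
        · exact Subtype.ext (k.trans k'.symm)
    have := Nat.card_le_card_of_injective F hF
    rw [Nat.card_prod, Nat.card_eq_fintype_card (α := Bool), Fintype.card_bool] at this
    omega
  let rep : R → Q := fun r => r.2.choose
  have hrep : ∀ r : R, ψ (rep r) = r.1 := fun r => r.2.choose_spec
  let E : Q → R × S := fun a =>
    (⟨ψ a, a, rfl⟩, ⟨(rep ⟨ψ a, a, rfl⟩ : G)⁻¹ * a, mul_mem (inv_mem (SetLike.coe_mem _)) a.2, by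
      have e : ψ (rep ⟨ψ a, a, rfl⟩) = ψ a := hrep _
      generalize rep ⟨ψ a, a, rfl⟩ = b at e ⊢
      simp only [ψ] at e
      rw [inv_eq_of_mul_eq_one_right hx2, mul_assoc x, mul_assoc x, mul_assoc x, mul_assoc x,
        mul_right_inj] at e
      calc (b : G)⁻¹ * a * x = (b : G)⁻¹ * (a * x * (a : G)⁻¹) * a := by group
        _ = (b : G)⁻¹ * (b * x * (b : G)⁻¹) * a := by rw [e]
        _ = x * ((b : G)⁻¹ * a) := by group⟩)
  have hE : Function.Injective E := by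
    intro a b e
    have e1 : (E a).1 = (E b).1 := congrArg Prod.fst e
    have e2 : ((rep (E a).1 : Q) : G)⁻¹ * a = ((rep (E b).1 : Q) : G)⁻¹ * b :=
      congrArg (fun p => (p.2.1 : G)) e
    rw [e1] at e2
    exact Subtype.ext (mul_left_cancel e2)
  have h2 := Nat.card_le_card_of_injective E hE
  rw [Nat.card_prod, h.cardQ] at h2
  simp only [Fintype.card_sum, Fintype.card_fin, Nat.reduceAdd, Nat.reducePow] at h2
  have h3 := Nat.mul_le_mul_right (Nat.card S) hR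
  change 16 ≤ Nat.card S
  omega

/-- A conjugate of `z` outside `Q` is near, if its centraliser in `Q` is large. -/
theorem fixer_bound (hA : At z Q q8 b8 φ s8 f8 g s) {x : G} (hx : x * z = z * x) (hxQ : x ∉ Q)
    (hnear : ¬ NearQ z Q x) (P : V8 → Prop) (hP : ∀ a ∈ Q, P (φ a) → a * x = x * a)
    {T : Type} [Finite T] (hT : Nat.card T ≤ 8) (F : (V8 → V8) → T)
    (hF : ∀ M M' : V8 → V8,
      (∀ u v, M (u + v) = M u + M v) ∧ (∀ v, q8 (M v) = q8 v) ∧ (∀ v, P v → M v = v) ∧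
        (∀ v, M (hA.fr.act x v) = hA.fr.act x (M v)) →
      (∀ u v, M' (u + v) = M' u + M' v) ∧ (∀ v, q8 (M' v) = q8 v) ∧ (∀ v, P v → M' v = v) ∧
        (∀ v, M' (hA.fr.act x v) = hA.fr.act x (M' v)) →
      F M = F M' → M = M') : ¬ IsConj z x := by
  classical
  intro hconj
  obtain ⟨τ, hτ⟩ := isConj_iff.1 hconj
  have h := hA.fr
  set y := τ⁻¹ * z * τ with hy
  have hxne : x ≠ z := fun e => hxQ (e ▸ h.ci.mem)
  have hyz : y * z = z * y := by
    have hzt : z * (τ * z * τ⁻¹) = τ * z * τ⁻¹ * z := by rw [hτ, hx]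
    calc τ⁻¹ * z * τ * z = τ⁻¹ * (z * (τ * z * τ⁻¹)) * τ := by group
      _ = _ := by rw [hzt, hy]; group
  have hyne : y ≠ z := fun e => hxne (by
    calc x = τ * y * τ⁻¹ := by rw [e, hτ]
      _ = z := by rw [hy]; group)
  have hy2 : y * y = 1 := by
    rw [hy, show τ⁻¹ * z * τ * (τ⁻¹ * z * τ) = τ⁻¹ * (z * z) * τ by group, h.ci.sq]; group
  have hyQ : y ∉ Q := fun e => by
    have := h.symm_mem (a := 1) (b := τ⁻¹) (by simpa using e) (by simpa [hy] using hyne)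
    simp [hτ] at this
    exact hxQ this
  have htr : ∀ b, b ∈ Q → b * y = y * b →
      τ * b * τ⁻¹ * z = z * (τ * b * τ⁻¹) ∧ τ * b * τ⁻¹ * x = x * (τ * b * τ⁻¹) := by
    intro b hb hby
    constructor
    · calc τ * b * τ⁻¹ * z = τ * (b * y) * τ⁻¹ := by rw [hy]; group
        _ = _ := by rw [hby, hy]; group
    · have hzc := h.ci.comm b hb
      calc τ * b * τ⁻¹ * x = τ * (b * z) * τ⁻¹ := by rw [← hτ]; group
        _ = _ := by rw [hzc, ← hτ]; group
  have hdis : ∀ a, a ∈ Q → a * x = x * a → τ⁻¹ * a * τ ∈ Q → a = 1 := by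
    intro a ha hat haτ
    rcases h.ci.sq_mem ha with r | r
    · by_contra ha1
      have haz : a ≠ z := fun e => hyQ (by rw [hy, ← e]; exact haτ)
      obtain ⟨j, hj⟩ := hA.conj_of_mem ha r ha1 haz
      have hat' : a ≠ x := fun e => hxQ (e ▸ ha)
      have := h.symm_mem (a := τ) (b := j) (by rw [hj]; exact haτ) (by rw [hj, hτ]; exact hat')
      rw [hτ] at this
      exact hnear ⟨j, hj.symm ▸ ha, hj.symm ▸ haz, hj.symm ▸ hat'.symm, this⟩
    · exfalso
      refine hyQ ?_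
      rw [hy, ← r, show τ⁻¹ * (a * a) * τ = (τ⁻¹ * a * τ) * (τ⁻¹ * a * τ) by group]
      exact mul_mem haτ haτ
  have hfix : ∀ b, b ∈ Q → b * y = y * b → ∀ v, P v → h.act (τ * b * τ⁻¹) v = v := by
    intro b hb hby v hv
    obtain ⟨a, ha, rfl⟩ := h.map_surj v
    have hat := hP a ha hv
    obtain ⟨hbz, hbt⟩ := htr b hb hby
    have e : τ * b * τ⁻¹ * a * (τ * b * τ⁻¹)⁻¹ * a⁻¹ = 1 := by
      refine hdis _ (mul_mem (h.conj_memQ hbz ha) (inv_mem ha)) ?_ ?_
      · exact ((((Commute.mul_left (hbt : Commute _ x) (hat : Commute a x)).mul_left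
          (Commute.inv_left hbt))).mul_left (Commute.inv_left hat)).eq
      · have hac : τ⁻¹ * a * τ * z = z * (τ⁻¹ * a * τ) := by
          calc τ⁻¹ * a * τ * z = τ⁻¹ * (a * (τ * z * τ⁻¹)) * τ := by group
            _ = _ := by rw [hτ, hat, ← hτ]; group
        rw [show τ⁻¹ * (τ * b * τ⁻¹ * a * (τ * b * τ⁻¹)⁻¹ * a⁻¹) * τ =
          b * ((τ⁻¹ * a * τ) * b⁻¹ * (τ⁻¹ * a * τ)⁻¹) by group]
        exact mul_mem hb (h.conj_memQ hac (inv_mem hb))
    rw [h.act_map hbz ha, mul_inv_eq_one.1 e]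
  let S := {a : G // a ∈ Q ∧ a * y = y * a}
  have good : ∀ b : S,
      (∀ u v, h.act (τ * b.1 * τ⁻¹) (u + v) = h.act (τ * b.1 * τ⁻¹) u + h.act (τ * b.1 * τ⁻¹) v) ∧
      (∀ v, q8 (h.act (τ * b.1 * τ⁻¹) v) = q8 v) ∧
      (∀ v, P v → h.act (τ * b.1 * τ⁻¹) v = v) ∧
      (∀ v, h.act (τ * b.1 * τ⁻¹) (h.act x v) = h.act x (h.act (τ * b.1 * τ⁻¹) v)) := fun b => by
    obtain ⟨hbz, hbt⟩ := htr b.1 b.2.1 b.2.2
    exact ⟨h.act_add hbz, h.act_q hbz, hfix b.1 b.2.1 b.2.2, fun v => by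
      rw [← h.act_mul hbz hx, ← h.act_mul hx hbz, hbt]⟩
  have hinj : Function.Injective fun b : S => F (h.act (τ * b.1 * τ⁻¹)) := by
    intro a b e
    have hall := congrFun (hF _ _ (good a) (good b) e)
    obtain ⟨haz, hax⟩ := htr a.1 a.2.1 a.2.2
    obtain ⟨hbz, hbx⟩ := htr b.1 b.2.1 b.2.2
    have hbi : (τ * b.1 * τ⁻¹)⁻¹ * z = z * (τ * b.1 * τ⁻¹)⁻¹ := (Commute.inv_left hbz).eq
    have hm : (τ * b.1 * τ⁻¹)⁻¹ * (τ * a.1 * τ⁻¹) ∈ Q := by
      refine h.mem_of_act (h.mul_comm_z hbi haz) fun v => ?_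
      rw [h.act_mul hbi haz, hall, h.act_inv_act hbz]
    have hd := hdis _ hm ?_ ?_
    · refine Subtype.ext (inv_mul_eq_one.1 ?_).symm
      calc (b.1)⁻¹ * a.1 = τ⁻¹ * ((τ * b.1 * τ⁻¹)⁻¹ * (τ * a.1 * τ⁻¹)) * τ := by group
        _ = 1 := by rw [hd]; group
    · exact (Commute.mul_left (Commute.inv_left (hbx : Commute _ x)) (hax : Commute _ x)).eq
    · rw [show τ⁻¹ * ((τ * b.1 * τ⁻¹)⁻¹ * (τ * a.1 * τ⁻¹)) * τ = (b.1)⁻¹ * a.1 by group]
      exact mul_mem (inv_mem b.2.1) a.2.1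
  have k1 := Nat.card_le_card_of_injective _ hinj
  have k2 : 16 ≤ Nat.card S := card_comm_ge h hyz hy2
  omega

variable {hA : At z Q q8 b8 φ s8 f8 g s} {ua va yc vc : G} (hb : Base hA ua va yc vc)
include hb

/-- Elements of `Q` commuting with the first base involution. -/
theorem comm_a {a : G} (ha : a ∈ Q) (h1 : b8 (φ a) s8 = 0) (h2 : b8 (φ a) wa = 0)
    (h3 : b8 (φ a) da = 0) : a * (ua * va) = ua * va * a := by
  have has := (hA.img_comm ha).2 h1
  have hau := hA.commute_of_perp ha has hb.ua h2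
  have hav : a * va = va * a := (hA.fr.map_comm a ha va hb.va).2 (by rw [hb.vad]; exact h3)
  rw [← mul_assoc, hau, mul_assoc, hav, mul_assoc]

/-- Elements of `Q` commuting with the second base involution. -/
theorem comm_c {a : G} (ha : a ∈ Q) (h1 : b8 (φ a) s8 = 0) (h2 : b8 (φ a) wc = 0)
    (h3 : b8 (φ a) dc = 0) : a * (yc * vc) = yc * vc * a := by
  have has := (hA.img_comm ha).2 h1
  have hau := hA.commute_of_perp ha has hb.yc h2
  have hav : a * vc = vc * a := (hA.fr.map_comm a ha vc hb.vc).2 (by rw [hb.vcd]; exact h3)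
  rw [← mul_assoc, hau, mul_assoc, hav, mul_assoc]

/-- The first base involution is not conjugate to `z`. -/
theorem not_conj_a : ¬ IsConj z (ua * va) := by
  obtain ⟨hz, -, hQ, -, hn⟩ := base_a hb
  refine fixer_bound hA hz hQ hn (fun v => v = s8 ∨ v = wa ∨ v = da ∨ v = E0 ∨ v = F0)
    (fun a ha hv => comm_a hb ha (perpA_data _ hv).1 (perpA_data _ hv).2.1 (perpA_data _ hv).2.2)
    (T := ZMod 2 × ZMod 2 × ZMod 2) (by simp [Nat.card_eq_fintype_card])
    (fun M => (M f8 (.inl 1), M f8 (.inl 2), M g1 (.inl 2))) ?_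
  rintro M M' ⟨ha, hq, hf, -⟩ ⟨ha', hq', hf', -⟩ e
  simp only [Prod.mk.injEq] at e
  obtain ⟨e1, e2, e3⟩ := e
  have hqf := hA.md.hp.qf
  have shape : ∀ {M : V8 → V8}, (∀ u v, M (u + v) = M u + M v) → (∀ v, q8 (M v) = q8 v) →
      (∀ v, (v = s8 ∨ v = wa ∨ v = da ∨ v = E0 ∨ v = F0) → M v = v) →
      M f8 = M f8 (.inl 1) • wa + M f8 (.inl 2) • da + f8 ∧
      M g1 = M f8 (.inl 1) • s8 + M g1 (.inl 2) • da + g1 ∧
      M g2 = M f8 (.inl 2) • s8 + M g1 (.inl 2) • wa + g2 := by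
    intro M ha hq hf
    have hB : ∀ u v, b8 (M u) (M v) = b8 u v := fun u v => by
      have e := hqf.add u v
      rw [← hq (u + v), ha, hqf.add, hq, hq] at e
      exact add_left_cancel e
    have hk : ∀ u v, (v = s8 ∨ v = wa ∨ v = da ∨ v = E0 ∨ v = F0) → b8 (M u) v = b8 u v :=
      fun u v hv => by conv_lhs => rw [← hf v hv, hB]
    obtain ⟨⟨a0, a1, a2, a3, a4, a5⟩, ⟨c0, c1, c2, c3, c4, c5⟩, ⟨d0, d1, d2, d3, d4, d5⟩, r1, r2, r3⟩ :=
      g_data
    have k0 := candA0 (M f8) ((hq _).trans a0) (by rw [hk _ _ (by simp), a1]) (by rw [hk _ _ (by simp), a2])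
      (by rw [hk _ _ (by simp), a3]) (by rw [hk _ _ (by simp), a4]) (by rw [hk _ _ (by simp), a5])
    have k1 := candA1 (M g1) ((hq _).trans c0) (by rw [hk _ _ (by simp), c1]) (by rw [hk _ _ (by simp), c2])
      (by rw [hk _ _ (by simp), c3]) (by rw [hk _ _ (by simp), c4]) (by rw [hk _ _ (by simp), c5])
    have k2 := candA2 (M g2) ((hq _).trans d0) (by rw [hk _ _ (by simp), d1]) (by rw [hk _ _ (by simp), d2])
      (by rw [hk _ _ (by simp), d3]) (by rw [hk _ _ (by simp), d4]) (by rw [hk _ _ (by simp), d5])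
    have e01 : M g1 (.inl 0) = M f8 (.inl 1) := by
      refine relA01 _ (M f8 (.inl 2)) _ (M g1 (.inl 2)) ?_
      rw [← k0, ← k1, hB, r1]
    have e02 : M g2 (.inl 0) = M f8 (.inl 2) := by
      refine relA02 (M f8 (.inl 1)) _ _ (M g2 (.inl 1)) ?_
      rw [← k0, ← k2, hB, r2]
    have e12 : M g2 (.inl 1) = M g1 (.inl 2) := by
      refine relA12 (M g1 (.inl 0)) _ (M g2 (.inl 0)) _ ?_
      rw [← k1, ← k2, hB, r3]
    exact ⟨k0, by rw [← e01]; exact k1, by rw [← e02, ← e12]; exact k2⟩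
  obtain ⟨s0, s1, s2⟩ := shape ha hq hf
  obtain ⟨t0, t1, t2⟩ := shape ha' hq' hf'
  have hsm : ∀ {M : V8 → V8}, (∀ u v, M (u + v) = M u + M v) → ∀ (k : ZMod 2) v,
      M (k • v) = k • M v := by
    intro M ha k v
    rcases z2 k with rfl | rfl
    · simpa using map_zero (AddMonoidHom.mk' M ha)
    · simp
  have ef : M f8 = M' f8 := by rw [s0, t0, e1, e2]
  have eg1 : M g1 = M' g1 := by rw [s1, t1, e1, e3]
  have eg2 : M g2 = M' g2 := by rw [s2, t2, e2, e3]
  funext v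
  rw [basisA v, show mk8 0 0 0 0 0 1 0 0 = g1 from rfl, show mk8 0 0 0 0 0 0 1 0 = g2 from rfl]
  simp only [ha, ha', hsm ha, hsm ha', hf s8 (by simp), hf' s8 (by simp), hf wa (by simp),
    hf' wa (by simp), hf da (by simp), hf' da (by simp), hf E0 (by simp), hf' E0 (by simp),
    hf F0 (by simp), hf' F0 (by simp), ef, eg1, eg2]

/-- The second base involution is not conjugate to `z`. -/
theorem not_conj_c : ¬ IsConj z (yc * vc) := by
  obtain ⟨hz, -, hQ, hact, hn⟩ := base_c hb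
  obtain ⟨pwc, pdc, qwc, qdc, bdw, wc0⟩ := consts_c
  refine fixer_bound hA hz hQ hn (fun v => v = s8 ∨ v = E0 ∨ v = F0 ∨ v = E1 ∨ v = E2)
    (fun a ha hv => comm_c hb ha (perpC_data _ hv).1 (perpC_data _ hv).2.1 (perpC_data _ hv).2.2)
    (T := ZMod 2 × ZMod 2 × ZMod 2) (by simp [Nat.card_eq_fintype_card])
    (fun M => (M wc (.inl 0), M dc (.inl 0), M dc (.inr 1))) ?_
  rintro M M' ⟨ha, hq, hf, hc⟩ ⟨ha', hq', hf', hc'⟩ e
  simp only [Prod.mk.injEq] at e
  obtain ⟨e1, e2, e3⟩ := e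
  have hp := hA.md.hp
  have hqf := hp.qf
  have hsm : ∀ {M : V8 → V8}, (∀ u v, M (u + v) = M u + M v) → ∀ (k : ZMod 2) v,
      M (k • v) = k • M v := by
    intro M ha k v
    rcases z2 k with rfl | rfl
    · simpa using map_zero (AddMonoidHom.mk' M ha)
    · simp
  obtain ⟨fe0, ff0, fe1, fe2⟩ := f_data
  have shape : ∀ {M : V8 → V8}, (∀ u v, M (u + v) = M u + M v) → (∀ v, q8 (M v) = q8 v) →
      (∀ v, (v = s8 ∨ v = E0 ∨ v = F0 ∨ v = E1 ∨ v = E2) → M v = v) →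
      (∀ v, M (hA.fr.act (yc * vc) v) = hA.fr.act (yc * vc) (M v)) →
      (M wc = wc ∨ M wc = wc + s8) ∧ M dc = M dc (.inl 0) • s8 + M dc (.inr 1) • wc + dc ∧
      M f8 = q8 (b8 (M f8) dc • wc + b8 (M f8) wc • dc) • s8 + f8 +
        (b8 (M f8) dc • wc + b8 (M f8) wc • dc) ∧ b8 (M f8) (M wc) = 0 ∧ b8 (M f8) (M dc) = 0 ∧
      b8 (M f8) s8 = 1 := by
    intro M ha hq hf hc
    have hB : ∀ u v, b8 (M u) (M v) = b8 u v := fun u v => by
      have e := hqf.add u v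
      rw [← hq (u + v), ha, hqf.add, hq, hq] at e
      exact add_left_cancel e
    have hk : ∀ u v, (v = s8 ∨ v = E0 ∨ v = F0 ∨ v = E1 ∨ v = E2) → b8 (M u) v = b8 u v :=
      fun u v hv => by conv_lhs => rw [← hf v hv, hB]
    have ms : M s8 = s8 := hf s8 (by simp)
    have hfs : b8 (M f8) s8 = 1 := by rw [hk _ _ (by simp), hp.bfs]
    have hMw : M wc = wc ∨ M wc = wc + s8 := by
      have e := hc f8
      rw [hact, hact, hp.rho_f pwc, qwc, one_smul, ha, ha, ms, rho, hfs, one_smul, qwc, mul_one] at e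
      rcases z2 (b8 (M f8) wc) with r | r <;> rw [r] at e
      · rw [zero_add, one_smul] at e
        exact Or.inl (add_left_cancel (add_right_cancel e))
      · rw [show (1 : ZMod 2) + 1 = 0 from rfl, zero_smul, add_zero, add_assoc] at e
        refine Or.inr ?_
        calc M wc = M wc + s8 + s8 := by rw [add_assoc, add_self', add_zero]
          _ = wc + s8 := by rw [add_left_cancel e]
    have pw := fun v hv => (perpC_data v hv).2.1
    have pd := fun v hv => (perpC_data v hv).2.2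
    have d1 : ∀ v, (v = s8 ∨ v = E0 ∨ v = F0 ∨ v = E1 ∨ v = E2) → b8 (M dc) v = 0 := fun v hv => by
      rw [hk _ _ hv, hqf.symm]; exact pd v hv
    have dw : b8 (M dc) wc = 1 := by
      have e1 : b8 (M dc) (M wc) = 1 := (hB _ _).trans bdw
      rcases hMw with r | r <;> rw [r] at e1
      · exact e1
      · rwa [map_add, d1 s8 (by simp), add_zero] at e1
    refine ⟨hMw, candD _ ((hq _).trans qdc) (d1 _ (by simp)) (d1 _ (by simp)) (d1 _ (by simp))
      (d1 _ (by simp)) (d1 _ (by simp)) dw, ?_, ?_, ?_, hfs⟩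
    · exact candF _ ((hq _).trans hp.qff) hfs (by rw [hk _ _ (by simp), fe0])
        (by rw [hk _ _ (by simp), ff0]) (by rw [hk _ _ (by simp), fe1]) (by rw [hk _ _ (by simp), fe2])
    · rw [hB, hqf.symm]; exact pwc.2
    · rw [hB, hqf.symm]; exact pdc.2
  obtain ⟨aw, ad, af, af5, af6, afs⟩ := shape ha hq hf hc
  obtain ⟨bw, bd, bf, bf5, bf6, bfs⟩ := shape ha' hq' hf' hc'
  have ew : M wc = M' wc := coord_w _ aw _ bw e1
  have ed : M dc = M' dc := by rw [ad, bd, e2, e3]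
  have ef : M f8 = M' f8 := by
    have k1 : b8 (M f8) wc = b8 (M' f8) wc := by
      rw [← ew] at bf5
      rcases aw with r | r <;> rw [r] at af5 bf5
      · rw [af5, bf5]
      · rw [map_add, afs] at af5
        rw [map_add, bfs] at bf5
        rw [CharTwo.add_eq_zero.1 af5, CharTwo.add_eq_zero.1 bf5]
    have k2 : b8 (M f8) dc = b8 (M' f8) dc := by
      rw [← ed, ad] at bf6
      rw [ad] at af6
      simp only [map_add, map_smul, smul_eq_mul, afs, bfs, k1] at af6 bf6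
      exact add_left_cancel (af6.trans bf6.symm)
    rw [af, bf, k1, k2]
  funext v
  rw [basisC v]
  simp only [ha, ha', hsm ha, hsm ha', hf s8 (by simp), hf' s8 (by simp), hf E0 (by simp),
    hf' E0 (by simp), hf F0 (by simp), hf' F0 (by simp), hf E1 (by simp), hf' E1 (by simp),
    hf E2 (by simp), hf' E2 (by simp), ef, ew, ed]

end Cfsg.Agent.Co1Type
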