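import Cfsg.Agent.Co1Type.Two

/-!
Involutions whose displacement on the quotient has dimension four are conjugate to others.
-/

set_option autoImplicit false
set_option maxRecDepth 100000
set_option synthInstance.maxSize 4000

namespace Cfsg.Agent.Co1Type

open Cfsg.Agent.ExtraTwo Cfsg.Agent.LargeExtra Cfsg.Agent.TTClass.OrthF2

variable {G : Type*} [Group G] [Finite G] {z : G} {Q : Subgroup G} {φ : G → V8}
  {g s : G}

/-- Having a singular axis. -/
def HasAxis (h : Frame z Q q8 b8 φ) (c : G) : Prop :=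
  ∃ a, q8 a = 0 ∧ a ≠ 0 ∧ h.act c a = a ∧ (∃ y, h.act c y + y = a) ∧
    ∀ x, b8 x a = 0 → h.act c x = x ∨ h.act c x = x + a

/-- Displacement of dimension four. -/
def IsFour (h : Frame z Q q8 b8 φ) (c : G) : Prop :=
  Nat.card {v // h.act c v = v} = 16 ∧ ∀ v, h.act c v = v → ∃ y, h.act c y + y = v

/-- The dichotomy for elements with square in `Q`. -/
def Dich (h : Frame z Q q8 b8 φ) : Prop :=
  ∀ c, c * z = z * c → c ∉ Q → c * c ∈ Q → HasAxis h c ∨ IsFour h c

/-- A displacement with fewer than sixteen values is not of dimension four. -/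
theorem IsFour.false_of_range {h : Frame z Q q8 b8 φ} {c : G} (h4 : IsFour h c) (L : Finset V8)
    (hL : L.card < 16) (hc : ∀ y, h.act c y + y ∈ L) : False := by
  have hle : Nat.card {v // h.act c v = v} ≤ Nat.card L := by
    refine Nat.card_le_card_of_injective (fun v => ⟨v.1, ?_⟩)
      (fun u v e => Subtype.ext (Subtype.ext_iff.1 e :))
    obtain ⟨y, hy⟩ := h4.2 v.1 v.2
    exact hy ▸ hc y
  rw [h4.1, Nat.card_eq_fintype_card, Fintype.card_coe] at hle
  omega

section facts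

variable {h : Frame z Q q8 b8 φ} {x : G}

theorem act_self (hx : x * z = z * x) (hx2 : x * x = 1) (v : V8) :
    h.act x (h.act x v) = v := by rw [← h.act_mul hx hx, hx2, h.act_one]

theorem disp_symm (hx : x * z = z * x) (hx2 : x * x = 1) (u v : V8) :
    b8 (h.act x u + u) v = b8 u (h.act x v + v) := by
  have e : b8 (h.act x u) v = b8 u (h.act x v) := by
    conv_lhs => rw [← act_self (h := h) hx hx2 v, h.act_B hx]
  simp only [map_add, LinearMap.add_apply, e]

theorem disp_perp (hx : x * z = z * x) (hx2 : x * x = 1) (u v : V8) :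
    b8 (h.act x u + u) (h.act x v + v) = 0 := by
  rw [disp_symm hx hx2, h.act_add hx, act_self hx hx2, add_comm (h.act x v) v, add_self', map_zero]

end facts

/-- The choice of the singular vector for an involution with displacement of dimension four. -/
theorem exists_point {h : Frame z Q q8 b8 φ} {x : G} (hx : x * z = z * x) (hx2 : x * x = 1)
    (h4 : IsFour h x) : ∃ a, q8 a = 0 ∧ a ≠ 0 ∧ (∃ y, h.act x y + y = a) ∧
      ∀ y, b8 y a = 0 → q8 (h.act x y + y) = 0 := by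
  classical
  have hqf : IsQF q8 b8 := h.qf
  let N : V8 →+ V8 := AddMonoidHom.mk' (fun v => h.act x v + v) fun a b => by
    rw [h.act_add hx]; abel
  let L : V8 →+ ZMod 2 := AddMonoidHom.mk' (fun v => q8 (N v)) fun a b => by
    rw [map_add, hqf.add, show b8 (N a) (N b) = 0 from disp_perp hx hx2 a b, add_zero]
  have hBs : Function.Surjective b8 := by
    have hinj : Function.Injective b8 := by
      rw [injective_iff_map_eq_zero]
      exact fun v hv => hqf.nd v fun w => by rw [hv]; rfl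
    exact (LinearMap.injective_iff_surjective_of_finrank_eq_finrank
      (by rw [Subspace.dual_finrank_eq])).1 hinj
  obtain ⟨e, he⟩ := hBs (L.toZModLinearMap 2)
  have heq : ∀ y, b8 y e = q8 (N y) := fun y => by
    rw [hqf.symm, he]; rfl
  by_cases he0 : e = 0
  · have hall : ∀ y, q8 (N y) = 0 := fun y => by rw [← heq, he0, map_zero]
    obtain ⟨v, hv, hv0⟩ : ∃ v, h.act x v = v ∧ v ≠ 0 := by
      by_contra hno
      push Not at hno
      have : Nat.card {v // h.act x v = v} ≤ Nat.card ({0} : Finset V8) :=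
        Nat.card_le_card_of_injective (fun v => ⟨v.1, by simp [hno v.1 v.2]⟩)
          (fun u v e => Subtype.ext (Subtype.ext_iff.1 e :))
      rw [h4.1] at this
      simp at this
    obtain ⟨y, hy⟩ := h4.2 v hv
    exact ⟨v, hy ▸ hall y, hv0, ⟨y, hy⟩, fun y _ => hall y⟩
  have hefix : h.act x e = e := by
    refine eq_of_add_eq_zero' (hqf.nd _ fun y => ?_)
    rw [disp_symm hx hx2, hqf.symm, heq]
    show q8 (h.act x (h.act x y + y) + (h.act x y + y)) = 0
    rw [h.act_add hx, act_self hx hx2, add_comm y, add_self', hqf.zero]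
  obtain ⟨y0, hy0⟩ := h4.2 e hefix
  suffices hqe : q8 e = 0 from ⟨e, hqe, he0, ⟨y0, hy0⟩, fun y hy => (heq y).symm.trans hy⟩
  -- the alternating form on the kernel of the functional has a radical
  refine (z2 _).resolve_right fun hqe => ?_
  have hy0e : b8 y0 e = 1 := by rw [heq, show N y0 = e from hy0, hqe]
  have hsym : ∀ u v, b8 (N u) v = b8 u (N v) := disp_symm hx hx2
  have hdiag : ∀ u, b8 u (N u) = q8 (N u) := fun u => by
    show b8 u (h.act x u + u) = q8 (h.act x u + u)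
    rw [map_add, hqf.self, add_zero, hqf.add, h.act_q hx, hqf.symm (h.act x u)]
    exact (add_left_cancel (a := q8 u + q8 u) (by rw [CharTwo.add_self_eq_zero, zero_add, zero_add]))
  obtain ⟨a, hae, ha0⟩ : ∃ a, b8 a e = 0 ∧ N a ≠ 0 := by
    by_contra hno
    push Not at hno
    refine h4.false_of_range {0, e} ((Finset.card_le_two).trans_lt (by norm_num)) fun y => ?_
    show N y ∈ _
    rcases z2 (b8 y e) with k | k
    · simp [hno y k]
    · have := hno (y + y0) (by simp [k, hy0e]; exact CharTwo.add_self_eq_zero _)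
      rw [map_add] at this
      simp [eq_of_add_eq_zero' this, show N y0 = e from hy0]
  -- a functional vanishing on the kernel of `b8 · e`
  have hfun : ∀ c, (∀ y, b8 y e = 0 → b8 c (N y) = 0) → N c = 0 ∨ N c = e := by
    intro c hc
    rcases z2 (b8 c (N y0)) with k | k
    · left
      refine hqf.nd _ fun y => ?_
      rw [hsym]
      rcases z2 (b8 y e) with r | r
      · exact hc y r
      · have := hc (y + y0) (by simp [r, hy0e]; exact CharTwo.add_self_eq_zero _)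
        rwa [map_add, map_add, k, add_zero] at this
    · right
      refine eq_of_add_eq_zero' (hqf.nd _ fun y => ?_)
      rw [map_add, LinearMap.add_apply, hsym, hqf.symm e]
      rcases z2 (b8 y e) with r | r
      · rw [hc y r, r, add_zero]
      · have := hc (y + y0) (by simp [r, hy0e]; exact CharTwo.add_self_eq_zero _)
        rw [map_add, map_add, k] at this
        rw [r]
        exact this
  have hne : ∀ c, b8 c e = 0 → N c ≠ e := fun c hc e' => by
    rw [heq, e', hqe] at hc; exact one_ne_zero hc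
  obtain ⟨b, hbe, hab⟩ : ∃ b, b8 b e = 0 ∧ b8 a (N b) = 1 := by
    by_contra hno
    push Not at hno
    rcases hfun a fun y hy => (z2 _).resolve_right (hno y hy) with r | r
    · exact ha0 r
    · exact hne a hae r
  let W := N.range
  let Ψ : W →+ ZMod 2 × ZMod 2 × ZMod 2 :=
    AddMonoidHom.mk' (fun w => (q8 w.1, b8 a w.1, b8 b w.1)) fun u v => by
      obtain ⟨_, u', rfl⟩ := u
      obtain ⟨_, v', rfl⟩ := v
      simp [hqf.add, show b8 (N u') (N v') = 0 from disp_perp hx hx2 u' v', Prod.ext_iff]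
  have hab' : b8 b (N a) = 1 := by rw [← hsym, hqf.symm, hab]
  have hΨ : Function.Surjective Ψ := by
    rintro ⟨i, j, k⟩
    let y := i • y0 + (k + i * b8 b (N y0)) • a + (j + i * b8 a (N y0)) • b
    have hN : ∀ (l : ZMod 2) v, N (l • v) = l • N v := fun l v => by
      rcases z2 l with rfl | rfl <;> simp
    refine ⟨⟨N y, y, rfl⟩, ?_⟩
    show (q8 (N y), b8 a (N y), b8 b (N y)) = _
    have e1 : q8 (N y) = i := by
      rw [← heq]
      simp [y, hy0e, hae, hbe]
    have e2 : b8 a (N y) = j := by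
      simp only [y, map_add, hN, map_smul, smul_eq_mul, hdiag a, ← heq a, hae, hab]
      rcases z2 i with rfl | rfl <;> rcases z2 j with rfl | rfl <;>
        rcases z2 (b8 a (N y0)) with r | r <;> rw [r] <;> simp <;> exact CharTwo.add_self_eq_zero _
    have e3 : b8 b (N y) = k := by
      simp only [y, map_add, hN, map_smul, smul_eq_mul, hdiag b, ← heq b, hbe, hab']
      rcases z2 i with rfl | rfl <;> rcases z2 k with rfl | rfl <;>
        rcases z2 (b8 b (N y0)) with r | r <;> rw [r] <;> simp <;> exact CharTwo.add_self_eq_zero _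
    rw [e1, e2, e3]
  have hW : Nat.card W = 16 := by
    rw [← h4.1]
    refine Nat.card_congr (Equiv.subtypeEquivRight fun v => ⟨?_, fun hv => h4.2 v hv⟩)
    rintro ⟨y, rfl⟩
    show h.act x (h.act x y + y) = h.act x y + y
    rw [h.act_add hx, act_self hx hx2, add_comm]
  have hK : Nat.card Ψ.ker = 2 := by
    have := AddSubgroup.card_mul_index Ψ.ker
    rw [AddSubgroup.index_ker, hW, AddMonoidHom.range_eq_top.2 hΨ, AddSubgroup.card_top,
      Nat.card_prod, Nat.card_prod, Nat.card_zmod] at this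
    omega
  obtain ⟨⟨⟨_, c, rfl⟩, hcK⟩, hc0⟩ : ∃ k : Ψ.ker, k ≠ 0 := by
    haveI : Nontrivial Ψ.ker := Finite.one_lt_card_iff_nontrivial.1 (by omega)
    exact exists_ne 0
  have hc : q8 (N c) = 0 ∧ b8 a (N c) = 0 ∧ b8 b (N c) = 0 := by
    have : (q8 (N c), b8 a (N c), b8 b (N c)) = (0, 0, 0) := hcK
    simpa [Prod.ext_iff] using this
  have hce : b8 c e = 0 := (heq c).trans hc.1
  have hNc : N c ≠ 0 := fun r => hc0 (Subtype.ext (Subtype.ext r))
  refine (hfun c fun y hy => ?_).elim hNc (hne c hce)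
  -- reduce `y` into the kernel
  set y' := y + b8 b (N y) • a + b8 a (N y) • b with hy'
  have hN : ∀ (l : ZMod 2) v, N (l • v) = l • N v := fun l v => by
    rcases z2 l with rfl | rfl <;> simp
  have ke : q8 (N y') = 0 := by
    rw [← heq, hy']
    simp [hy, hae, hbe]
  have ka : b8 a (N y') = 0 := by
    simp only [hy', map_add, hN, map_smul, smul_eq_mul, hdiag a, ← heq a, hae, hab, mul_zero,
      mul_one, add_zero]
    exact CharTwo.add_self_eq_zero _
  have kb : b8 b (N y') = 0 := by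
    simp only [hy', map_add, hN, map_smul, smul_eq_mul, hdiag b, ← heq b, hbe, hab', mul_zero,
      mul_one, add_zero]
    exact CharTwo.add_self_eq_zero _
  have hk : N y' = 0 ∨ N y' = N c := by
    by_contra hno
    push Not at hno
    let F : Fin 3 → Ψ.ker := ![0, ⟨⟨N c, c, rfl⟩, hcK⟩,
      ⟨⟨N y', y', rfl⟩, show (q8 (N y'), b8 a (N y'), b8 b (N y')) = 0 by rw [ke, ka, kb]; rfl⟩]
    have hF : Function.Injective F := by
      intro i j e
      have e' : ((F i : W) : V8) = (F j : W) := congrArg (fun t : Ψ.ker => ((t : W) : V8)) e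
      fin_cases i <;> fin_cases j <;> first
        | rfl
        | exact absurd e' hNc | exact absurd e'.symm hNc
        | exact absurd e' hno.1 | exact absurd e'.symm hno.1
        | exact absurd e' hno.2 | exact absurd e'.symm hno.2
    have := Nat.card_le_card_of_injective F hF
    rw [hK, Nat.card_fin] at this
    omega
  have hca : b8 c (N a) = 0 := by rw [← hsym, hqf.symm]; exact hc.2.1
  have hcb : b8 c (N b) = 0 := by rw [← hsym, hqf.symm]; exact hc.2.2
  have h0 : b8 c (N y') = 0 := by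
    rcases hk with r | r <;> rw [r]
    · exact map_zero (b8 c)
    · rw [hdiag]; exact hc.1
  rw [hy'] at h0
  simpa [map_add, hN, hca, hcb] using h0

variable (hA : At z Q q8 b8 φ s8 f8 g s)
include hA

/-- An inverse lift. -/
theorem hasW_inv {u : G} {w : V8} (hu : hA.HasW u w) : hA.HasW u⁻¹ w := by
  obtain ⟨w1, h1, h2⟩ := hA.exists_omega (hA.rd_inv hu.1)
  have hh : hA.HasW u⁻¹ w1 := ⟨hA.rd_inv hu.1, h1, h2⟩
  have e := hA.hasW_mul hu hh
  rw [mul_inv_cancel] at e
  have e0 : hA.HasW (1 : G) 0 := ⟨⟨by simp, by simp⟩, hA.md.hp.perp2_zero, fun x => by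
    rw [hA.fr.act_one, hA.md.hp.rho_zero]⟩
  rw [eq_of_add_eq_zero' (hA.hasW_unique e e0)]
  exact hh

/-- The commutator with `x` lies in `⟨s⟩`. -/
def Tame (x t : G) : Prop :=
  Rd z Q g t ∧ (x * t * x⁻¹ = t ∨ x * t * x⁻¹ = s * t)

omit [Finite G] hA in
theorem tame_of_eq {x t k : G} (hk : k = 1 ∨ k = s) (ht : Rd z Q g t) (he : x * t * x⁻¹ = k * t) :
    Tame (z := z) (Q := Q) (g := g) (s := s) x t := by
  rcases hk with rfl | rfl
  · exact ⟨ht, Or.inl (by rw [he, one_mul])⟩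
  · exact ⟨ht, Or.inr he⟩

theorem tame_mul {x t t' : G} (h1 : Tame (z := z) (Q := Q) (g := g) (s := s) x t)
    (h2 : Tame (z := z) (Q := Q) (g := g) (s := s) x t') :
    Tame (z := z) (Q := Q) (g := g) (s := s) x (t * t') := by
  refine ⟨hA.rd_mul h1.1 h2.1, ?_⟩
  have e : x * (t * t') * x⁻¹ = (x * t * x⁻¹) * (x * t' * x⁻¹) := by group
  rw [e]
  have hts := hA.comm_s h1.1.2
  rcases h1.2 with r | r <;> rcases h2.2 with r' | r' <;> rw [r, r']
  · exact Or.inl rfl
  · exact Or.inr (by rw [← mul_assoc, hts, mul_assoc])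
  · exact Or.inr (mul_assoc _ _ _)
  · refine Or.inl ?_
    rw [mul_assoc s t, ← mul_assoc t s t', hts, mul_assoc s t t', ← mul_assoc s s, hA.sq_s, one_mul]

theorem tame_X {x k : G} (hx : x * z = z * x) (hxs : x * s = s * x) (hk : At.IsX z s k) :
    Tame (z := z) (Q := Q) (g := g) (s := s) x k := by
  refine ⟨⟨?_, hA.X_memS hk⟩, Or.inl ?_⟩
  · rw [← hA.X_comm hk rfl hA.s_comm_z.symm]
  · rw [hA.X_comm hk hx hxs, mul_inv_cancel_right]

/-- Many fixed points after moving `x` by `g`. -/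
theorem not_four_of_tame {x : G} (hx : x * z = z * x) (hxs : x * s = s * x) {a w σ τ : V8}
    (ha0 : a ≠ 0) (hw0 : w ≠ 0) (hwa : w ≠ a) (ba : b8 a τ = 0 ∧ b8 w τ = 0 ∧ b8 σ τ = 1)
    (bs : b8 a σ = 0 ∧ b8 w σ = 0)
    (hta : ∃ t, hA.HasW t a ∧ Tame (z := z) (Q := Q) (g := g) (s := s) x t)
    (htw : ∃ t, hA.HasW t w ∧ Tame (z := z) (Q := Q) (g := g) (s := s) x t)
    (hts : ∃ t, hA.HasW t σ ∧ Tame (z := z) (Q := Q) (g := g) (s := s) x t)
    (htt : ∃ t, hA.HasW t τ ∧ Tame (z := z) (Q := Q) (g := g) (s := s) x t) :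
    ¬ IsFour hA.fr (g⁻¹ * x * g) := by
  classical
  intro h4
  have h := hA.fr
  have hqf := hA.md.hp.qf
  have he1 : hA.HasW (1 : G) 0 := ⟨⟨by simp, by simp⟩, hA.md.hp.perp2_zero, fun v => by
    rw [hA.fr.act_one, hA.md.hp.rho_zero]⟩
  have ht1 : Tame (z := z) (Q := Q) (g := g) (s := s) x (1 : G) := tame_X hA hx hxs (Or.inl rfl)
  have hpow : ∀ {v : V8}, (∃ t, hA.HasW t v ∧ Tame (z := z) (Q := Q) (g := g) (s := s) x t) →
      ∀ c : ZMod 2, ∃ t, hA.HasW t (c • v) ∧ Tame (z := z) (Q := Q) (g := g) (s := s) x t := by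
    intro v hv c
    rcases z2 c with rfl | rfl
    · exact ⟨1, by rwa [zero_smul], ht1⟩
    · rwa [one_smul]
  have hcomb : ∀ c : ZMod 2 × ZMod 2 × ZMod 2 × ZMod 2,
      ∃ t, hA.HasW t (c.1 • a + c.2.1 • w + c.2.2.1 • σ + c.2.2.2 • τ) ∧
        Tame (z := z) (Q := Q) (g := g) (s := s) x t := by
    intro c
    obtain ⟨t1, p1, q1⟩ := hpow hta c.1
    obtain ⟨t2, p2, q2⟩ := hpow htw c.2.1
    obtain ⟨t3, p3, q3⟩ := hpow hts c.2.2.1
    obtain ⟨t4, p4, q4⟩ := hpow htt c.2.2.2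
    exact ⟨t1 * t2 * t3 * t4, hA.hasW_mul (hA.hasW_mul (hA.hasW_mul p1 p2) p3) p4,
      tame_mul hA (tame_mul hA (tame_mul hA q1 q2) q3) q4⟩
  choose T hT hTt using hcomb
  have hx' : g⁻¹ * x * g * z = z * (g⁻¹ * x * g) := hA.comm_iff.1 hxs
  let K : Bool → G := fun i => cond i z 1
  have hK : ∀ i, At.IsX z s (K i) := fun i => by
    cases i
    · exact Or.inl rfl
    · exact Or.inr (Or.inl rfl)
  have hfix : ∀ c i, hA.fr.act (g⁻¹ * x * g) (φ (g⁻¹ * (T c * K i) * g)) =
      φ (g⁻¹ * (T c * K i) * g) := by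
    intro c i
    obtain ⟨hr, ht⟩ := tame_mul hA (hTt c) (tame_X hA hx hxs (hK i))
    rw [hA.fr.act_map hx' hr.2,
      show g⁻¹ * x * g * (g⁻¹ * (T c * K i) * g) * (g⁻¹ * x * g)⁻¹ =
        g⁻¹ * (x * (T c * K i) * x⁻¹) * g by group]
    rcases ht with r | r <;> rw [r]
    rw [show g⁻¹ * (s * (T c * K i)) * g = (g⁻¹ * s * g) * (g⁻¹ * (T c * K i) * g) by group,
      hA.conjS_s, h.map_mul _ h.ci.mem _ hr.2, h.map_z, zero_add]
  let E : (ZMod 2 × ZMod 2 × ZMod 2 × ZMod 2) × Bool → {v // hA.fr.act (g⁻¹ * x * g) v = v} :=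
    fun p => ⟨φ (g⁻¹ * (T p.1 * K p.2) * g), hfix p.1 p.2⟩
  have hE : Function.Injective E := by
    rintro ⟨c, i⟩ ⟨c', i'⟩ e
    have e' : φ (g⁻¹ * (T c * K i) * g) = φ (g⁻¹ * (T c' * K i') * g) := congrArg Subtype.val e
    have hw1 := hA.hasW_mul_X (hT c) (hK i)
    have hw2 := hA.hasW_mul_X (hT c') (hK i')
    obtain ⟨k, hks, hk⟩ : ∃ k, (k = 1 ∨ k = s) ∧ T c * K i = T c' * K i' * k := by
      rcases h.eq_or_of_map_eq hw1.1.2 hw2.1.2 e' with r | r
      · refine ⟨1, Or.inl rfl, ?_⟩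
        rw [mul_one]
        calc T c * K i = g * (g⁻¹ * (T c * K i) * g) * g⁻¹ := by group
          _ = _ := by rw [r]; group
      · refine ⟨s, Or.inr rfl, ?_⟩
        calc T c * K i = g * (g⁻¹ * (T c * K i) * g) * g⁻¹ := by group
          _ = _ := by rw [r, hA.eq]; group
    have hkX : At.IsX z s k := hks.elim (fun r => Or.inl r) (fun r => Or.inr (Or.inr (Or.inl r)))
    have hw := hA.hasW_unique hw1 (hk ▸ hA.hasW_mul_X hw2 hkX)
    try simp only at hw
    have e3 := congrArg (fun v => b8 v τ) hw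
    have e4 := congrArg (fun v => b8 v σ) hw
    simp [ba.1, ba.2.1, ba.2.2, hqf.self] at e3
    simp [bs.1, bs.2, hqf.self, hqf.symm τ σ, ba.2.2] at e4
    obtain ⟨c1, c2, c3, c4⟩ := c
    obtain ⟨d1, d2, d3, d4⟩ := c'
    simp only at hw e3 e4
    subst e3 e4
    have haw : c1 • a + c2 • w = d1 • a + d2 • w := add_right_cancel (add_right_cancel hw)
    have h12 : c1 = d1 ∧ c2 = d2 := by
      rcases z2 c1 with rfl | rfl <;> rcases z2 c2 with rfl | rfl <;>
        rcases z2 d1 with rfl | rfl <;> rcases z2 d2 with rfl | rfl <;>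
        simp [ha0, hw0, hwa, hwa.symm, Ne.symm ha0, Ne.symm hw0] at haw ⊢
      all_goals first | exact absurd (eq_of_add_eq_zero' haw) hwa.symm | exact absurd (eq_of_add_eq_zero' haw.symm) hwa.symm
    obtain ⟨rfl, rfl⟩ := h12
    rw [mul_assoc] at hk
    have e5 := mul_left_cancel hk
    suffices i = i' by rw [this]
    rcases hks with rfl | rfl
    · rw [mul_one] at e5
      cases i <;> cases i' <;> first | rfl | exact absurd e5 h.ci.ne_one | exact absurd e5.symm h.ci.ne_one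
    · exfalso
      cases i <;> cases i' <;> simp only [K, cond_true, cond_false, one_mul] at e5
      · exact hA.s_ne_one e5.symm
      · exact hA.ne_z (by rw [eq_inv_of_mul_eq_one_right e5.symm, h.ci.inv_eq])
      · exact hA.ne_z e5.symm
      · exact hA.s_ne_one (mul_eq_left.1 e5.symm)
  have := Nat.card_le_card_of_injective E hE
  rw [h4.1] at this
  rw [Nat.card_prod, Nat.card_prod, Nat.card_prod, Nat.card_prod, Nat.card_zmod,
    Nat.card_eq_fintype_card (α := Bool), Fintype.card_bool] at this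
  omega

/-- The main step. -/
theorem reduce_fixed (hdich : Dich hA.fr) {x : G} (hx : x * z = z * x) (hx2 : x * x = 1)
    (hxs : x * s = s * x) (h4 : IsFour hA.fr x)
    (hsing : ∀ y, b8 y s8 = 0 → q8 (hA.fr.act x y + y) = 0) :
    ∃ k, k * x * k⁻¹ * z = z * (k * x * k⁻¹) ∧ ¬ IsFour hA.fr (k * x * k⁻¹) := by
  classical
  have h := hA.fr
  have hp := hA.md.hp
  have hqf := hp.qf
  have hxs0 : h.act x s8 = s8 := by
    have e := hA.fr.act_map hx hA.mem
    rwa [hxs, mul_inv_cancel_right, hA.img] at e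
  -- the vector of the first factor
  obtain ⟨σ, hσ, hdec⟩ := hp.decomp (h.act x f8 + f8)
  set p := h.act x f8 + f8 with hp_def
  have hps : b8 p s8 = 0 := by
    rw [hp_def, map_add, LinearMap.add_apply, hp.bfs]
    conv_lhs => rw [← hxs0, h.act_B hx, hp.bfs]
    rfl
  have hfp : h.act x f8 = f8 + p := by rw [hp_def, add_comm (h.act x f8), add_left_self]
  have hpf : b8 p f8 = q8 p := by
    have e := h.act_q hx f8
    rw [hfp, hqf.add, hp.qff, zero_add, hqf.symm f8 p] at e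
    exact (CharTwo.add_eq_zero.1 e).symm
  rw [hps, zero_smul, add_zero] at hdec
  have hqσ : q8 p = q8 σ := by rw [hdec, hp.q_smul_s_add _ hσ.1]
  rw [hpf, hqσ] at hdec
  have hxf : h.act x f8 = rho q8 b8 s8 σ f8 := by
    rw [hfp, hdec, hp.rho_f hσ, add_comm (q8 σ • s8) σ, add_assoc]
  obtain ⟨u, hu⟩ := hA.exists_lift hσ
  have huz := hu.1.1
  have hui : u⁻¹ * z = z * u⁻¹ := (Commute.inv_left huz).eq
  have hus : u * s = s * u := hA.comm_s hu.1.2
  obtain ⟨r, rfl⟩ : ∃ r, x = u * r := ⟨u⁻¹ * x, (mul_inv_cancel_left u x).symm⟩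
  have hrz : r * z = z * r := by
    have := h.mul_comm_z hui hx
    rwa [inv_mul_cancel_left] at this
  have hrs : r * s = s * r := by
    have e : u * (r * s) = u * (s * r) := by rw [← mul_assoc, hxs, ← mul_assoc, ← mul_assoc, hus]
    exact mul_left_cancel e
  have hactx : ∀ v, h.act (u * r) v = rho q8 b8 s8 σ (h.act r v) := fun v => by
    rw [h.act_mul huz hrz, hu.2.2]
  have hMs : h.act r s8 = s8 := by
    have e := hA.fr.act_map hrz hA.mem
    rwa [hrs, mul_inv_cancel_right, hA.img] at e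
  have hinv : ∀ v, rho q8 b8 s8 σ (rho q8 b8 s8 σ v) = v := fun v => by
    rw [hp.rho_mul hσ hσ, add_self', hp.rho_zero]
  have hMf : h.act r f8 = f8 := by
    rw [← hinv (h.act r f8), ← hactx, hxf, hinv]
  have hMD : ∀ {d}, perp2 b8 s8 f8 d → perp2 b8 s8 f8 (h.act r d) := fun {d} hd => by
    constructor
    · conv_lhs => rw [← hMs, h.act_B hrz]
      exact hd.1
    · conv_lhs => rw [← hMf, h.act_B hrz]
      exact hd.2
  have hMM : ∀ v, rho q8 b8 s8 (σ + h.act r σ) (h.act r (h.act r v)) = v := fun v => by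
    have e := act_self (h := h) hx hx2 v
    rw [hactx, hactx, hp.rho_conj (h.act_add hrz) (h.act_q hrz) hMs,
      hp.rho_mul hσ (hMD hσ)] at e
    exact e
  have hσfix : h.act r σ = σ := by
    have e := hMM f8
    rw [hMf, hMf] at e
    exact (eq_of_add_eq_zero' (hp.rho_inj (hp.perp2_add hσ (hMD hσ)) hp.perp2_zero
      (e.trans (hp.rho_zero f8).symm))).symm
  have hM2 : ∀ v, h.act r (h.act r v) = v := fun v => by
    have e := hMM v
    rwa [hσfix, add_self', hp.rho_zero] at e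
  have hrr : r * r ∈ Q := h.mem_of_act (h.mul_comm_z hrz hrz) fun v => by rw [h.act_mul hrz hrz, hM2]
  have hrQ : r ∉ Q := fun hm => by
    refine h4.false_of_range {0, s8, σ, σ + s8} (Finset.card_le_four.trans_lt (by norm_num)) fun y => ?_
    rw [hactx, h.act_of_mem hm, rho, add_assoc y, add_comm y, add_assoc, add_self', add_zero]
    rcases z2 (b8 y s8) with k | k <;> rcases z2 (b8 y σ + b8 y s8 * q8 σ) with k' | k' <;>
      rw [k'] <;> rw [k] <;> simp
  have hMB : ∀ u v, b8 (h.act r u) v = b8 u (h.act r v) := fun u v => by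
    conv_lhs => rw [← hM2 v, h.act_B hrz]
  have hNperp : ∀ y, perp2 b8 s8 f8 (h.act r y + y) := fun y => by
    constructor <;> rw [map_add, LinearMap.add_apply, hMB]
    · rw [hMs]; exact CharTwo.add_self_eq_zero _
    · rw [hMf]; exact CharTwo.add_self_eq_zero _
  have hNd : ∀ y, ∃ d, perp2 b8 s8 f8 d ∧ h.act r y + y = h.act r d + d := fun y => by
    obtain ⟨d, hd, hy⟩ := hp.decomp y
    refine ⟨d, hd, ?_⟩
    generalize b8 y f8 = α at hy
    generalize b8 y s8 = β at hy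
    rw [hy, h.act_add hrz, h.act_add hrz, h.act_smul hrz, h.act_smul hrz, hMs, hMf]
    calc α • s8 + β • f8 + h.act r d + (α • s8 + β • f8 + d)
        = (α • s8 + α • s8) + (β • f8 + β • f8) + (h.act r d + d) := by abel
      _ = _ := by rw [add_self', add_self', zero_add, zero_add]
  have hNq : ∀ y, q8 (h.act r y + y) = 0 := fun y => by
    obtain ⟨d, hd, hy⟩ := hNd y
    rw [hy]
    have e := hsing d hd.1
    rw [hactx, hp.rho_of_perp σ (hMD hd).1, add_comm (h.act r d) (_ • s8), add_assoc,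
      hp.q_smul_s_add _ (hp.perp2_add (hMD hd) hd).1] at e
    exact e
  rcases hdich r hrz hrQ hrr with ⟨a, hqa, ha0, hMa, ⟨ya, hya⟩, htr⟩ | hr4
  swap
  · obtain ⟨y, hy⟩ := hr4.2 s8 hMs
    have hn := (hNperp y).2
    rw [hy, hp.bsf] at hn
    exact absurd hn one_ne_zero
  have hap : perp2 b8 s8 f8 a := hya ▸ hNperp ya
  -- the near element with the same action
  obtain ⟨c2, hc2, hc2a, -⟩ := h.lift_orb (hA.md.trans a hqa ha0)
  have hc2i : c2⁻¹ * z = z * c2⁻¹ := (Commute.inv_left hc2).eq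
  obtain ⟨w', hw', hM'⟩ := hp.exists_rho (M := fun v => h.act c2⁻¹ (h.act r (h.act c2 v)))
    (fun u v => by simp only [h.act_add hc2, h.act_add hrz, h.act_add hc2i])
    (fun v => by simp only [h.act_q hc2i, h.act_q hrz, h.act_q hc2])
    (by
      show h.act c2⁻¹ (h.act r (h.act c2 s8)) = s8
      conv_rhs => rw [← h.act_inv_act hc2 s8]
      rw [hc2a, hMa])
    (fun v hv => by
      have ht := htr (h.act c2 v) (by rw [← hc2a, h.act_B hc2, hv])
      show h.act c2⁻¹ (h.act r (h.act c2 v)) = v ∨ h.act c2⁻¹ (h.act r (h.act c2 v)) = v + s8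
      rcases ht with e | e <;> rw [e]
      · exact Or.inl (h.act_inv_act hc2 v)
      · refine Or.inr ?_
        rw [h.act_add hc2i, h.act_inv_act hc2, ← hc2a, h.act_inv_act hc2])
  have hM : ∀ v, h.act r (h.act c2 v) = h.act c2 (rho q8 b8 s8 w' v) := fun v => by
    rw [← hM' v, h.act_act_inv hc2]
  have hqw' : q8 w' = 0 := by
    have e := hNq (h.act c2 f8)
    rw [hM, ← h.act_add hc2, h.act_q hc2, hp.rho_f hw', add_assoc f8, add_comm f8, add_assoc,
      add_self', add_zero, add_comm w', hp.q_smul_s_add _ hw'.1] at e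
    exact e
  obtain ⟨u', hu'⟩ := hA.exists_lift hw'
  have hu'2 : u' * u' = 1 := (hA.sq_iff hu').2 hqw'
  set r0 := c2 * u' * c2⁻¹ with hr0
  have hr0z : r0 * z = z * r0 := h.conj_comm_z hc2 hu'.1.1
  have hr0act : ∀ v, h.act r0 v = h.act r v := fun v => by
    obtain ⟨v, rfl⟩ : ∃ v', h.act c2 v' = v := ⟨_, h.act_act_inv hc2 v⟩
    rw [hr0, h.act_conj hc2 hu'.1.1, hu'.2.2, hM]
  have hr0Q : r0 ∉ Q := fun hm => hrQ (h.mem_of_act hrz fun v => by
    rw [← hr0act, h.act_of_mem hm])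
  have hr02 : r0 * r0 = 1 := by
    rw [hr0, show c2 * u' * c2⁻¹ * (c2 * u' * c2⁻¹) = c2 * (u' * u') * c2⁻¹ by group, hu'2]; group
  have hnear : NearQ z Q r0 := by
    refine h.nearQ_conj hc2 ⟨g, hA.eq ▸ hA.mem, hA.eq ▸ hA.ne_z, fun e => hr0Q ?_, hu'.1.2⟩
    rw [hr0]
    exact h.conj_memQ hc2 (by rw [e, ← hA.eq]; exact hA.mem)
  have hcomm0 : ∀ t ∈ Q, h.act r (φ t) = φ t → t * r0 = r0 * t := fun t ht e =>
    hA.fix_comm_of_nearQ hr0z hr0Q hnear hr02 ht ((hr0act _).trans e)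
  obtain ⟨v, rfl⟩ : ∃ v, r = r0 * v := ⟨r0⁻¹ * r, (mul_inv_cancel_left r0 r).symm⟩
  have hr0i : r0⁻¹ * z = z * r0⁻¹ := (Commute.inv_left hr0z).eq
  have hv : v ∈ Q := by
    have := h.mem_of_act (c := r0⁻¹ * (r0 * v)) (h.mul_comm_z hr0i hrz) fun t => by
      rw [h.act_mul hr0i hrz, ← hr0act, h.act_inv_act hr0z]
    rwa [inv_mul_cancel_left] at this
  have hsr0 : r0 * s = s * r0 := (hcomm0 s hA.mem (by rw [hA.img]; exact hMs)).symm
  have hvs : v * s = s * v := by
    refine mul_left_cancel (a := r0) ?_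
    calc r0 * (v * s) = r0 * v * s := (mul_assoc r0 v s).symm
      _ = s * (r0 * v) := hrs
      _ = s * r0 * v := (mul_assoc s r0 v).symm
      _ = r0 * s * v := by rw [hsr0]
      _ = r0 * (s * v) := mul_assoc r0 s v
  -- the plane of the second factor
  set w := h.act c2 w' with hw
  have hMy : ∀ y, h.act (r0 * v) y + y = b8 y a • w + b8 y w • a := fun y => by
    obtain ⟨y, rfl⟩ : ∃ y', h.act c2 y' = y := ⟨_, h.act_act_inv hc2 y⟩
    rw [hM, hw, ← hc2a, h.act_B hc2, h.act_B hc2, rho, hqw', mul_zero, add_zero, h.act_add hc2,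
      h.act_add hc2, h.act_smul hc2, h.act_smul hc2]
    calc h.act c2 y + b8 y s8 • h.act c2 w' + b8 y w' • h.act c2 s8 + h.act c2 y
        = (h.act c2 y + h.act c2 y) + (b8 y s8 • h.act c2 w' + b8 y w' • h.act c2 s8) := by abel
      _ = _ := by rw [add_self', zero_add]
  have hbwa : b8 w a = 0 := by rw [hw, ← hc2a, h.act_B hc2]; exact hw'.1
  have hqw : q8 w = 0 := (h.act_q hc2 w').trans hqw'
  have h0act : h.act c2 0 = 0 := by simpa using h.act_smul hc2 0 (0 : V8)
  have hw'0 : w' ≠ 0 := fun e => hrQ (h.mem_of_act hrz fun y => by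
    obtain ⟨y, rfl⟩ : ∃ y', h.act c2 y' = y := ⟨_, h.act_act_inv hc2 y⟩
    rw [hM, e, hp.rho_zero])
  have hw0 : w ≠ 0 := fun e => hw'0 (by
    rw [← h.act_inv_act hc2 w', ← hw, e]
    simpa using h.act_smul hc2i 0 (0 : V8))
  have hwa' : w ≠ a := fun e => by
    have e2 : w' = s8 := by
      rw [← h.act_inv_act hc2 w', ← hw, e, ← hc2a, h.act_inv_act hc2]
    have hn := hw'.2
    rw [e2, hp.bsf] at hn
    exact one_ne_zero hn
  have hwN : h.act (r0 * v) (h.act c2 f8) + h.act c2 f8 = w := by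
    rw [hMy, hw, ← hc2a, h.act_B hc2, h.act_B hc2, hp.bfs, hqf.symm f8 w', hw'.2, one_smul,
      zero_smul, add_zero]
  have hwp : perp2 b8 s8 f8 w := hwN ▸ hNperp _
  have hfixed : ∀ y, h.act (r0 * v) y = y → b8 y a = 0 ∧ b8 y w = 0 := fun y hy => by
    have e := hMy y
    rw [hy, add_self'] at e
    rcases z2 (b8 y a) with i | i <;> rcases z2 (b8 y w) with j | j <;> rw [i, j] at e <;>
      simp at e
    · exact ⟨i, j⟩
    · exact absurd e.symm ha0
    · exact absurd e.symm hw0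
    · exact absurd (eq_of_add_eq_zero' e.symm) hwa'
  have hσne : σ ≠ 0 ∧ σ ≠ a ∧ σ ≠ w ∧ σ ≠ a + w := by
    by_contra hno
    obtain ⟨i, j, hσe⟩ : ∃ i j : ZMod 2, σ = i • a + j • w := by
      rw [not_and_or, not_and_or, not_and_or, not_not, not_not, not_not, not_not] at hno
      rcases hno with e | e | e | e
      · exact ⟨0, 0, by simp [e]⟩
      · exact ⟨1, 0, by simp [e]⟩
      · exact ⟨0, 1, by simp [e]⟩
      · exact ⟨1, 1, by simp [e]⟩
    let L : Finset V8 := Finset.image (fun t : ZMod 2 × ZMod 2 × ZMod 2 =>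
      t.1 • s8 + t.2.1 • a + t.2.2 • w) Finset.univ
    refine h4.false_of_range L
      (lt_of_le_of_lt Finset.card_image_le (by simp)) fun y => ?_
    rw [hactx, rho]
    generalize b8 (h.act (r0 * v) y) s8 = A
    generalize b8 (h.act (r0 * v) y) σ + A * q8 σ = C
    refine Finset.mem_image.2 ⟨(C, b8 y w + A * i, b8 y a + A * j), Finset.mem_univ _, ?_⟩
    calc C • s8 + (b8 y w + A * i) • a + (b8 y a + A * j) • w
        = (b8 y a • w + b8 y w • a) + A • σ + C • s8 := by rw [hσe]; module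
      _ = _ := by rw [← hMy]; abel
  have hσf := hfixed σ hσfix
  -- the quotient part of the correction
  have hv2 : r0 * v * (r0 * v) ∈ Q ∧ g⁻¹ * (r0 * v * (r0 * v)) * g ∈ Q := by
    refine ⟨hrr, ?_⟩
    have e : r0 * v * (r0 * v) = (r0 * v * u * (r0 * v)⁻¹)⁻¹ * u⁻¹ := by
      rw [← mul_one ((r0 * v * u * (r0 * v)⁻¹)⁻¹ * u⁻¹), ← hx2]
      group
    have e' : g⁻¹ * ((r0 * v * u * (r0 * v)⁻¹)⁻¹ * u⁻¹) * g =
        (g⁻¹ * (r0 * v * u * (r0 * v)⁻¹) * g)⁻¹ * (g⁻¹ * u * g)⁻¹ := by group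
    rw [e, e']
    exact mul_mem (inv_mem (hA.conj_memS hrs hu.1.2)) (inv_mem hu.1.2)
  have hvz := h.ci.comm v hv
  have hr0s0 : h.act r0 s8 = s8 := (hr0act _).trans hMs
  have hvfix : h.act (r0 * v) (φ v) = φ v := by
    have e1 : φ (r0 * v * (r0 * v)) = h.act r0 (φ v) + φ v := by
      rw [show r0 * v * (r0 * v) = r0 * v * r0⁻¹ * ((r0 * r0) * v) by group, hr02, one_mul,
        h.map_mul _ (h.conj_memQ hr0z hv) _ hv, h.act_map hr0z hv]
    rw [← hr0act]
    refine eq_of_add_eq_zero' ?_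
    rcases hA.inter_img hv2.1 hv2.2 with e | e
    · exact e1.symm.trans e
    · exfalso
      have hn := (hNperp (φ v)).2
      rw [← hr0act, ← e1, e, hp.bsf] at hn
      exact one_ne_zero hn
  obtain ⟨b, hbQ, hbf⟩ := h.map_surj f8
  have hbz := h.ci.comm b hbQ
  set a1 := u * (r0 * v) * b * (u * (r0 * v))⁻¹ * b⁻¹ with ha1
  have ha1Q : a1 ∈ Q := mul_mem (h.conj_memQ hx hbQ) (inv_mem hbQ)
  have ha1φ : φ a1 = σ + q8 σ • s8 := by
    rw [ha1, h.map_mul _ (h.conj_memQ hx hbQ) _ (inv_mem hbQ), h.map_inv hbQ, ← h.act_map hx hbQ,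
      hbf, hxf, hp.rho_f hσ]
    calc f8 + σ + q8 σ • s8 + f8 = (f8 + f8) + (σ + q8 σ • s8) := by abel
      _ = _ := by rw [add_self', zero_add]
  have hxi : (u * (r0 * v))⁻¹ = u * (r0 * v) := inv_eq_of_mul_eq_one_right hx2
  have hxa1 : u * (r0 * v) * a1 * (u * (r0 * v))⁻¹ = a1⁻¹ := by
    rw [ha1]
    generalize u * (r0 * v) = t at hx2 hxi
    calc t * (t * b * t⁻¹ * b⁻¹) * t⁻¹ = (t * t) * b * t⁻¹ * b⁻¹ * t⁻¹ := by group
      _ = b * t * b⁻¹ * t⁻¹ := by rw [hx2, hxi, one_mul]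
      _ = (t * b * t⁻¹ * b⁻¹)⁻¹ := by group
  have ha1s : a1 * s = s * a1 := (hA.img_comm ha1Q).2 (by
    rw [ha1φ]; simp [hσ.1, hqf.self])
  have hua1 : a1 * u = u * a1 := hA.commute_of_perp ha1Q ha1s hu (by
    rw [ha1φ]; simp [hqf.self, hqf.symm s8 σ, hσ.1])
  have hrfix1 : h.act (r0 * v) (φ a1) = φ a1 := by
    rw [ha1φ, h.act_add hrz, h.act_smul hrz, hσfix, hMs]
  have hra1 : r0 * v * a1 * (r0 * v)⁻¹ = a1⁻¹ := by
    have hua : a1⁻¹ * u = u * a1⁻¹ := (Commute.inv_left hua1).eq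
    calc r0 * v * a1 * (r0 * v)⁻¹ = u⁻¹ * (u * (r0 * v) * a1 * (u * (r0 * v))⁻¹) * u := by group
      _ = a1⁻¹ := by rw [hxa1, mul_assoc, hua, inv_mul_cancel_left]
  have hva1 : v * a1 * v⁻¹ = a1⁻¹ := by
    have e := hcomm0 _ (inv_mem ha1Q) (by rw [h.map_inv ha1Q]; exact hrfix1)
    calc v * a1 * v⁻¹ = r0⁻¹ * (r0 * v * a1 * (r0 * v)⁻¹) * r0 := by group
      _ = a1⁻¹ := by rw [hra1, mul_assoc, e, inv_mul_cancel_left]
  have hBva : b8 (φ v) (φ a1) = q8 σ := by
    have hqa1 : q8 (φ a1) = q8 σ := by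
      rw [ha1φ, add_comm, hp.q_smul_s_add _ hσ.1]
    rcases z2 (q8 σ) with k | k <;> rw [k] at hqa1 ⊢
    · rw [inv_eq_of_mul_eq_one_right ((h.map_sq a1 ha1Q).2 hqa1)] at hva1
      exact (h.map_comm v hv a1 ha1Q).1 (mul_inv_eq_iff_eq_mul.1 hva1)
    · refine (z2 _).resolve_left fun e => h.ci.ne_one ?_
      rw [(h.map_comm v hv a1 ha1Q).2 e, mul_inv_cancel_right] at hva1
      have e2 := mul_eq_one_iff_eq_inv.2 hva1
      rw [h.sq_eq_z ha1Q hqa1] at e2
      exact e2
  obtain ⟨d, hd, hvd⟩ := hp.decomp (φ v)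
  rw [(hA.img_comm hv).1 hvs, zero_smul, add_zero] at hvd
  have hdfix : h.act (r0 * v) d = d := by
    have e := hvfix
    generalize b8 (φ v) f8 = α at hvd
    rw [hvd, h.act_add hrz, h.act_smul hrz, hMs] at e
    exact add_left_cancel e
  have hdσ : b8 d σ = q8 σ := by
    rw [← hBva, ha1φ]
    conv_rhs => rw [hvd]
    simp [hqf.self, hd.1, hqf.symm s8 σ, hσ.1]
  -- transport to the standard plane
  obtain ⟨pwa, -, qwa, -, -, wa0, -, -⟩ := consts_a
  obtain ⟨c, hc, -, hc0, hcf, hca, -⟩ := hA.exists_move (fun t ht => ht)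
    (hA.md.transD a wa hap pwa ha0 wa0 (hqa.trans qwa.symm))
  have hci : c⁻¹ * z = z * c⁻¹ := (Commute.inv_left hc).eq
  have hcp : ∀ {t}, perp2 b8 s8 f8 t → h.act c t ∈ dList := fun {t} ht => mem_dList _ ⟨by
      have e := h.act_B hc t s8
      rw [hc0] at e; exact e.trans ht.1, by
      have e := h.act_B hc t f8
      rw [hcf] at e; exact e.trans ht.2⟩
  have hcb : ∀ t, b8 (h.act c t) wa = b8 t a := fun t => by rw [← hca, h.act_B hc]
  have hcinj : ∀ {t t'}, h.act c t = h.act c t' → t = t' := fun {t t'} e => by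
    rw [← h.act_inv_act hc t, e, h.act_inv_act hc]
  have hc00 : h.act c 0 = 0 := by simpa using h.act_smul hc 0 (0 : V8)
  obtain ⟨hplane, τ', hτ', hτa, hτw, hτσ⟩ := plane_facts (h.act c w) (hcp hwp)
    ((h.act_q hc w).trans hqw) ((hcb w).trans hbwa) (fun e => hw0 (hcinj (e.trans hc00.symm)))
    (fun e => hwa' (hcinj (e.trans hca.symm))) (h.act c σ) (hcp hσ) ((hcb σ).trans hσf.1)
    ((h.act_B hc σ w).trans hσf.2) (fun e => hσne.1 (hcinj (e.trans hc00.symm)))
    (fun e => hσne.2.1 (hcinj (e.trans hca.symm))) (fun e => hσne.2.2.1 (hcinj e))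
    (fun e => hσne.2.2.2 (hcinj (by rw [e, h.act_add hc, hca])))
  have hdf := hfixed d hdfix
  have hqd : q8 d = 0 := by
    rw [← h.act_q hc d]
    refine hplane _ (hcp hd) ((hcb d).trans hdf.1) ((h.act_B hc d w).trans hdf.2) ?_
    rw [h.act_B hc, h.act_q hc, hdσ]
  have hqv : q8 (φ v) = 0 := by rw [hvd, hp.q_smul_s_add _ hd.1, hqd]
  have hr2 : r0 * v * (r0 * v) = 1 := by
    have e := hcomm0 v hv hvfix
    rw [show r0 * v * (r0 * v) = r0 * (v * r0) * v by group, e,
      show r0 * (r0 * v) * v = r0 * r0 * (v * v) by group, hr02, (h.map_sq v hv).2 hqv, one_mul]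
  -- tame elements
  set r := r0 * v with hr
  clear_value r
  have hri : r⁻¹ = r := inv_eq_of_mul_eq_one_right hr2
  have htame : ∀ {t k : G}, Rd z Q g t → (k = 1 ∨ k = s) → r * t * r⁻¹ = k * t →
      Tame (z := z) (Q := Q) (g := g) (s := s) (u * r) t := by
    intro t k ht hk he
    obtain ⟨k', hk', he'⟩ : ∃ k', (k' = 1 ∨ k' = s) ∧ u * t * u⁻¹ = k' * t := by
      rcases hA.comm_S hu.1.2 ht.2 with e | e
      · exact ⟨1, Or.inl rfl, by rw [one_mul]; exact mul_inv_eq_one.1 e⟩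
      · exact ⟨s, Or.inr rfl, mul_inv_eq_iff_eq_mul.1 e⟩
    refine tame_of_eq (k := k * k') ?_ ht ?_
    · rcases hk with rfl | rfl <;> rcases hk' with rfl | rfl <;> simp [hA.sq_s]
    · have huk : u * k = k * u := by
        rcases hk with rfl | rfl
        · simp
        · exact hus
      calc u * r * t * (u * r)⁻¹ = u * (r * t * r⁻¹) * u⁻¹ := by group
        _ = (u * k) * t * u⁻¹ := by rw [he]; group
        _ = k * (u * t * u⁻¹) := by rw [huk]; group
        _ = _ := by rw [he', mul_assoc]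
  have hru : r * u * r⁻¹ = u⁻¹ := by
    rw [hri]
    refine eq_inv_of_mul_eq_one_right ?_
    rw [← hx2]
    group
  have hTσ : ∃ t, hA.HasW t σ ∧ Tame (z := z) (Q := Q) (g := g) (s := s) (u * r) t := by
    refine ⟨u, hu, ?_⟩
    rcases hA.sq_S hu.1.2 with e | e
    · exact htame hu.1 (Or.inl rfl) (by rw [hru, one_mul, inv_eq_of_mul_eq_one_right e])
    · exact htame hu.1 (Or.inr rfl) (by
        rw [hru]
        refine inv_eq_of_mul_eq_one_left ?_
        rw [mul_assoc, e, hA.sq_s])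
  have hTN : ∀ y, ∃ t, hA.HasW t (h.act r y + y) ∧
      Tame (z := z) (Q := Q) (g := g) (s := s) (u * r) t := by
    intro y
    obtain ⟨d, hd, hy⟩ := hNd y
    obtain ⟨ud, hud⟩ := hA.exists_lift hd
    have hc' := hA.hasW_mul (hA.hasW_conj hrz hrs hMs (hMD hd) hud) (hasW_inv hA hud)
    rw [← hy] at hc'
    refine ⟨_, hc', htame hc'.1 (Or.inl rfl) ?_⟩
    have hc2 := (hA.sq_iff hc').2 (hNq y)
    rw [one_mul]
    calc r * (r * ud * r⁻¹ * ud⁻¹) * r⁻¹ = (r * r) * ud * r⁻¹ * ud⁻¹ * r⁻¹ := by group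
      _ = (r * ud * r⁻¹ * ud⁻¹)⁻¹ := by rw [hr2]; simp [hri, mul_assoc]
      _ = _ := inv_eq_of_mul_eq_one_right hc2
  have hTa : ∃ t, hA.HasW t a ∧ Tame (z := z) (Q := Q) (g := g) (s := s) (u * r) t := hya ▸ hTN ya
  have hTw : ∃ t, hA.HasW t w ∧ Tame (z := z) (Q := Q) (g := g) (s := s) (u * r) t :=
    hwN ▸ hTN _
  set τ := h.act c⁻¹ τ' with hτdef
  have hτc : h.act c τ = τ' := h.act_act_inv hc τ'
  have hτp : perp2 b8 s8 f8 τ := by
    have ht := dList_perp τ' hτ'
    constructor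
    · rw [← h.act_B hc τ s8, hτc, hc0]; exact ht.1
    · rw [← h.act_B hc τ f8, hτc, hcf]; exact ht.2
  have hτ1 : b8 τ a = 0 := by rw [← hcb, hτc]; exact hτa
  have hτ2 : b8 τ w = 0 := by rw [← h.act_B hc, hτc]; exact hτw
  have hτ3 : b8 τ σ = 1 := by rw [← h.act_B hc, hτc]; exact hτσ
  have hτfix : h.act r τ = τ :=
    eq_of_add_eq_zero' (by rw [hMy, hτ1, hτ2, zero_smul, zero_smul, add_zero])
  obtain ⟨uτ, huτ⟩ := hA.exists_lift hτp
  have hcτ := hA.hasW_conj hrz hrs hMs (hMD hτp) huτ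
  rw [hτfix] at hcτ
  obtain ⟨k, hk, hkeq⟩ := hA.hasW_congr huτ hcτ
  have hkc : uτ * k = k * uτ := hA.X_comm hk huτ.1.1 (hA.comm_s huτ.1.2)
  have hbσa : b8 a σ = 0 ∧ b8 w σ = 0 :=
    ⟨(hqf.symm _ _).trans hσf.1, (hqf.symm _ _).trans hσf.2⟩
  have hba : b8 a τ = 0 ∧ b8 w τ = 0 ∧ b8 σ τ = 1 :=
    ⟨(hqf.symm _ _).trans hτ1, (hqf.symm _ _).trans hτ2, (hqf.symm _ _).trans hτ3⟩
  have finish : ∀ k, k * (u * r) * k⁻¹ * z = z * (k * (u * r) * k⁻¹) →
      k * (u * r) * k⁻¹ * s = s * (k * (u * r) * k⁻¹) →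
      (∃ t, hA.HasW t a ∧ Tame (z := z) (Q := Q) (g := g) (s := s) (k * (u * r) * k⁻¹) t) →
      (∃ t, hA.HasW t w ∧ Tame (z := z) (Q := Q) (g := g) (s := s) (k * (u * r) * k⁻¹) t) →
      (∃ t, hA.HasW t σ ∧ Tame (z := z) (Q := Q) (g := g) (s := s) (k * (u * r) * k⁻¹) t) →
      (∃ t, hA.HasW t τ ∧ Tame (z := z) (Q := Q) (g := g) (s := s) (k * (u * r) * k⁻¹) t) →
      ∃ m, m * (u * r) * m⁻¹ * z = z * (m * (u * r) * m⁻¹) ∧ ¬ IsFour hA.fr (m * (u * r) * m⁻¹) := by
    intro k hkz hks t1 t2 t3 t4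
    have e : g⁻¹ * k * (u * r) * (g⁻¹ * k)⁻¹ = g⁻¹ * (k * (u * r) * k⁻¹) * g := by group
    refine ⟨g⁻¹ * k, ?_, ?_⟩ <;> rw [e]
    · exact hA.comm_iff.1 hks
    · exact not_four_of_tame hA hkz hks ha0 hw0 hwa' hba hbσa t1 t2 t3 t4
  by_cases hk1 : k = 1 ∨ k = s
  · have h1 : ∀ t : G, 1 * t * (1 : G)⁻¹ = t := fun t => by group
    refine finish 1 (by rw [h1]; exact hx) (by rw [h1]; exact hxs) ?_ ?_ ?_ ?_ <;> rw [h1]
    · exact hTa
    · exact hTw
    · exact hTσ
    · exact ⟨uτ, huτ, htame huτ.1 hk1 (by rw [hkeq, hkc])⟩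
  · have hbs : b * s * b⁻¹ = s * z := h.conj_eq_mul_z hbQ hA.mem (by rw [hbf, hA.img, hp.bfs])
    have hx' : b * (u * r) * b⁻¹ = u * r * a1 := by
      rw [ha1, hxi]
      calc b * (u * r) * b⁻¹ = (u * r * (u * r)) * b * (u * r) * b⁻¹ := by rw [hx2, one_mul]
        _ = _ := by group
    have hzs : b * s * b⁻¹ * (u * r * a1) = u * r * a1 * (b * s * b⁻¹) := by
      rw [← hx']
      calc b * s * b⁻¹ * (b * (u * r) * b⁻¹) = b * (s * (u * r)) * b⁻¹ := by group
        _ = _ := by rw [← hxs]; group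
    have hx'z : u * r * a1 * z = z * (u * r * a1) := h.mul_comm_z hx (h.ci.comm a1 ha1Q)
    have hx's : u * r * a1 * s = s * (u * r * a1) := by
      rw [hbs] at hzs
      have e1 : s * z * (u * r * a1) = s * (u * r * a1) * z := by rw [mul_assoc, ← hx'z, ← mul_assoc]
      refine (mul_right_cancel (b := z) ?_).symm
      rw [← e1, hzs, ← mul_assoc]
    have same : ∀ {t : G} {n : V8}, hA.HasW t n → b8 σ n = 0 →
        Tame (z := z) (Q := Q) (g := g) (s := s) (u * r) t →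
        Tame (z := z) (Q := Q) (g := g) (s := s) (u * r * a1) t := by
      intro t n ht hn htt
      have e : a1 * t = t * a1 := hA.commute_of_perp ha1Q ha1s ht (by
        rw [ha1φ]; simp [hn, hqf.symm s8 n, ht.2.1.1])
      refine ⟨ht.1, ?_⟩
      rw [show u * r * a1 * t * (u * r * a1)⁻¹ = u * r * (a1 * t * a1⁻¹) * (u * r)⁻¹ by group, e,
        mul_inv_cancel_right]
      exact htt.2
    refine finish b (by rw [hx']; exact hx'z) (by rw [hx']; exact hx's) ?_ ?_ ?_ ?_ <;> rw [hx']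
    · obtain ⟨t, ht, htt⟩ := hTa
      exact ⟨t, ht, same ht ((hqf.symm _ _).trans hbσa.1) htt⟩
    · obtain ⟨t, ht, htt⟩ := hTw
      exact ⟨t, ht, same ht ((hqf.symm _ _).trans hbσa.2) htt⟩
    · obtain ⟨t, ht, htt⟩ := hTσ
      exact ⟨t, ht, same ht (hqf.self σ) htt⟩
    · refine ⟨uτ, huτ, ?_⟩
      have hflip : a1 * uτ * a1⁻¹ = s * z * uτ := hA.conj_of_not_perp ha1Q ha1s huτ (by
        rw [ha1φ]; simp [hba.2.2, hqf.symm s8 τ, hτp.1])
      have hrsz : r * (s * z) = s * z * r := by rw [← mul_assoc, hrs, mul_assoc, hrz, ← mul_assoc]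
      have hk' : s * z * k = 1 ∨ s * z * k = s := by
        rcases hk with rfl | rfl | rfl | rfl
        · exact absurd (Or.inl rfl) hk1
        · exact Or.inr (by rw [mul_assoc, h.ci.sq, mul_one])
        · exact absurd (Or.inr rfl) hk1
        · refine Or.inl ?_
          exact hA.X_sq (Or.inr (Or.inr (Or.inr rfl)))
      have h0 : u * r * a1 * uτ * (u * r * a1)⁻¹ = u * (r * (a1 * uτ * a1⁻¹) * r⁻¹) * u⁻¹ := by group
      have h1 : r * (a1 * uτ * a1⁻¹) * r⁻¹ = s * z * k * uτ := by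
        rw [hflip]
        calc r * (s * z * uτ) * r⁻¹ = (r * (s * z)) * uτ * r⁻¹ := by group
          _ = s * z * (r * uτ * r⁻¹) := by rw [hrsz]; group
          _ = _ := by rw [hkeq, hkc]; group
      obtain ⟨k', hk'', he'⟩ : ∃ k', (k' = 1 ∨ k' = s) ∧ u * uτ * u⁻¹ = k' * uτ := by
        rcases hA.comm_S hu.1.2 huτ.1.2 with e | e
        · exact ⟨1, Or.inl rfl, by rw [one_mul]; exact mul_inv_eq_one.1 e⟩
        · exact ⟨s, Or.inr rfl, mul_inv_eq_iff_eq_mul.1 e⟩
      refine tame_of_eq (k := s * z * k * k') ?_ huτ.1 ?_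
      · rcases hk' with e | e <;> rw [e] <;> rcases hk'' with rfl | rfl <;> simp [hA.sq_s]
      · rw [h0, h1]
        rcases hk' with e | e <;> rw [e]
        · rw [one_mul, one_mul, he']
        · calc u * (s * uτ) * u⁻¹ = (u * s) * uτ * u⁻¹ := by group
            _ = s * (u * uτ * u⁻¹) := by rw [hus]; group
            _ = _ := by rw [he', mul_assoc]

/-- Displacement of dimension four is avoided by some conjugate. -/
theorem reduce (hdich : Dich hA.fr) {x : G} (hx : x * z = z * x) (hx2 : x * x = 1)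
    (h4 : IsFour hA.fr x) :
    ∃ k, k * x * k⁻¹ * z = z * (k * x * k⁻¹) ∧ ¬ IsFour hA.fr (k * x * k⁻¹) := by
  have h := hA.fr
  obtain ⟨a, hqa, ha0, ⟨y, hy⟩, hsing⟩ := exists_point hx hx2 h4
  obtain ⟨c, hc, hca, -⟩ := h.lift_orb (orb_symm (hA.md.trans a hqa ha0))
  have hci : c⁻¹ * z = z * c⁻¹ := (Commute.inv_left hc).eq
  set x1 := c * x * c⁻¹ with hx1
  have hx1z : x1 * z = z * x1 := h.conj_comm_z hc hx
  have hx12 : x1 * x1 = 1 := by
    rw [hx1, show c * x * c⁻¹ * (c * x * c⁻¹) = c * (x * x) * c⁻¹ by group, hx2]; group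
  have hN : ∀ v, h.act x1 (h.act c v) + h.act c v = h.act c (h.act x v + v) := fun v => by
    rw [hx1, h.act_conj hc hx, h.act_add hc]
  have h41 : IsFour hA.fr x1 := by
    refine ⟨?_, fun v hv => ?_⟩
    · rw [← h4.1]
      refine Nat.card_congr
        { toFun := fun v => ⟨h.act c⁻¹ v.1, ?_⟩
          invFun := fun v => ⟨h.act c v.1, ?_⟩
          left_inv := fun v => Subtype.ext (h.act_act_inv hc v.1)
          right_inv := fun v => Subtype.ext (h.act_inv_act hc v.1) }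
      · show h.act x (h.act c⁻¹ v.1) = h.act c⁻¹ v.1
        obtain ⟨v, e⟩ := v
        change h.act x1 v = v at e
        show h.act x (h.act c⁻¹ v) = h.act c⁻¹ v
        rw [← h.act_act_inv hc v, hx1, h.act_conj hc hx] at e
        have e2 := congrArg (h.act c⁻¹) e
        rwa [h.act_inv_act hc, h.act_inv_act hc] at e2
      · show h.act x1 (h.act c v.1) = h.act c v.1
        rw [hx1, h.act_conj hc hx]
        exact congrArg _ v.2
    · have e : h.act x1 v = v := hv
      rw [← h.act_act_inv hc v, hx1, h.act_conj hc hx] at e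
      have e2 := congrArg (h.act c⁻¹) e
      rw [h.act_inv_act hc, h.act_inv_act hc] at e2
      obtain ⟨y', hy'⟩ := h4.2 _ e2
      exact ⟨h.act c y', by
        show h.act x1 (h.act c y') + h.act c y' = v
        rw [hN, show h.act x y' + y' = h.act c⁻¹ v from hy', h.act_act_inv hc]⟩
  have hsing1 : ∀ v, b8 v s8 = 0 → q8 (h.act x1 v + v) = 0 := fun v hv => by
    rw [← h.act_act_inv hc v, hN, h.act_q hc]
    refine hsing _ ?_
    rw [← h.act_B hc, h.act_act_inv hc, hca]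
    exact hv
  have hxs : x1 * s = s * x1 := by
    obtain ⟨b, hb, hbφ⟩ := h.map_surj (h.act c y)
    set e := x1 * b * x1⁻¹ * b⁻¹ with he
    have heQ : e ∈ Q := mul_mem (h.conj_memQ hx1z hb) (inv_mem hb)
    have heφ : φ e = φ s := by
      rw [he, h.map_mul _ (h.conj_memQ hx1z hb) _ (inv_mem hb), h.map_inv hb, ← h.act_map hx1z hb,
        hbφ, hN, show h.act x y + y = a from hy, hca, hA.img]
    have hxe : x1 * e * x1⁻¹ = e⁻¹ := by
      have hxi : x1⁻¹ = x1 := inv_eq_of_mul_eq_one_right hx12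
      calc x1 * e * x1⁻¹ = (x1 * x1) * b * x1⁻¹ * b⁻¹ * x1⁻¹ := by rw [he]; group
        _ = b * x1 * b⁻¹ * x1⁻¹ := by rw [hx12, hxi, one_mul]
        _ = e⁻¹ := by rw [he]; group
    have he2 : e * e = 1 := (h.map_sq e heQ).2 (by rw [heφ, hA.img]; exact hA.md.hp.qs)
    rw [inv_eq_of_mul_eq_one_right he2] at hxe
    have hcm := mul_inv_eq_iff_eq_mul.1 hxe
    rcases h.eq_or_of_map_eq heQ hA.mem heφ with r | r <;> rw [r] at hcm
    · exact hcm
    · rw [mul_assoc s z x1, ← hx1z, ← mul_assoc, ← mul_assoc, mul_left_inj] at hcm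
      exact hcm
  obtain ⟨k, hk1, hk2⟩ := reduce_fixed hA hdich hx1z hx12 hxs h41 hsing1
  have e : k * c * x * (k * c)⁻¹ = k * x1 * k⁻¹ := by rw [hx1]; group
  exact ⟨k * c, by rw [e]; exact hk1, by rw [e]; exact hk2⟩

end Cfsg.Agent.Co1Type
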