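import Cfsg.Agent.Co1Type.Count
import Cfsg.Agent.Co1Type.Four
import Cfsg.Agent.Co1Type.Fixer

/-!
The two outer classes are different.
-/

set_option autoImplicit false
set_option maxRecDepth 100000
set_option synthInstance.maxSize 4000

namespace Cfsg.Agent.Co1Type

open Cfsg.Agent.ExtraTwo Cfsg.Agent.LargeExtra Cfsg.Agent.TTClass.OrthF2

theorem sep_data : b8 E0 F0 = 1 ∧ b8 dc wc = 1 ∧ b8 f8 wc = 0 ∧ b8 dc s8 = 0 ∧ b8 f8 s8 = 1 ∧
    perp2 b8 s8 f8 (dc + wc) := by
  unfold perp2; decide +kernel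

/-- An odd power keeps what an involutive permutation does. -/
theorem conj_odd_pow {G : Type*} [Group G] {k a b : G} (h1 : k * a * k⁻¹ = b) (h2 : k * b * k⁻¹ = a) :
    ∀ j : ℕ, k ^ (2 * j + 1) * a * (k ^ (2 * j + 1))⁻¹ = b := by
  intro j
  induction j with
  | zero => simpa using h1
  | succ j ih =>
    have e : k ^ (2 * (j + 1) + 1) = k * k * k ^ (2 * j + 1) := by
      rw [← pow_two, ← pow_add]; congr 1; ring
    rw [e]
    calc k * k * k ^ (2 * j + 1) * a * (k * k * k ^ (2 * j + 1))⁻¹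
        = k * (k * (k ^ (2 * j + 1) * a * (k ^ (2 * j + 1))⁻¹) * k⁻¹) * k⁻¹ := by group
      _ = b := by rw [ih, h2, h1]

variable {G : Type*} [Group G] [Finite G] {z : G} {Q : Subgroup G} {φ : G → V8}
  {g s : G} {hA : At z Q q8 b8 φ s8 f8 g s} {ua va yc vc : G} (hb : Base hA ua va yc vc)
include hb

/-- Centralising the second base involution fixes the axis. -/
theorem fix_axis {k : G} (hk : k * z = z * k) (hkt : k * (yc * vc) = yc * vc * k) :
    hA.fr.act k s8 = s8 := by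
  obtain ⟨pwc, pdc, qwc, qdc, bdw, wc0⟩ := consts_c
  obtain ⟨hz, -, -, hact, -⟩ := base_c hb
  have hp := hA.md.hp
  have e1 : hA.fr.act (yc * vc) dc + dc = s8 := by
    rw [hact, hp.rho_of_perp _ pdc.1, bdw, one_smul, add_comm dc, add_assoc, add_self', add_zero]
  have hc : ∀ y, hA.fr.act (yc * vc) (hA.fr.act k y) = hA.fr.act k (hA.fr.act (yc * vc) y) := fun y => by
    rw [← hA.fr.act_mul hk hz, hkt, hA.fr.act_mul hz hk]
  have e2 : hA.fr.act k (hA.fr.act (yc * vc) dc + dc) =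
      hA.fr.act (yc * vc) (hA.fr.act k dc) + hA.fr.act k dc := by
    rw [hA.fr.act_add hk, hc]
  have e0 : hA.fr.act k (hA.fr.act (yc * vc) dc + dc) = hA.fr.act k s8 := congrArg _ e1
  have hN : hA.fr.act k s8 = b8 (hA.fr.act k dc) s8 • wc +
      (b8 (hA.fr.act k dc) wc + b8 (hA.fr.act k dc) s8 * q8 wc) • s8 := by
    rw [← e0, e2, hact, rho]
    generalize hA.fr.act k dc = y
    calc y + b8 y s8 • wc + (b8 y wc + b8 y s8 * q8 wc) • s8 + y
        = (y + y) + (b8 y s8 • wc + (b8 y wc + b8 y s8 * q8 wc) • s8) := by abel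
      _ = _ := by rw [add_self', zero_add]
  have hq : q8 (hA.fr.act k s8) = 0 := (hA.fr.act_q hk s8).trans hp.qs
  have h0 : hA.fr.act k s8 ≠ 0 := fun e => by
    have e3 := congrArg (hA.fr.act k⁻¹) e
    have e4 : hA.fr.act k⁻¹ 0 = 0 := by
      simpa using hA.fr.act_smul (Commute.inv_left hk).eq 0 (0 : V8)
    have hz0 : s8 = 0 := ((hA.fr.act_inv_act hk s8).symm.trans e3).trans e4
    have hf := hp.bsf
    rw [show b8 s8 f8 = b8 0 f8 from congrArg (fun t => b8 t f8) hz0] at hf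
    simp at hf
  generalize b8 (hA.fr.act k dc) s8 = A at hN
  generalize b8 (hA.fr.act k dc) wc + A * q8 wc = C at hN
  rw [hN] at hq h0
  rcases z2 A with rfl | rfl
  · rcases z2 C with rfl | rfl
    · simp at h0
    · rw [hN]; simp
  · rw [one_smul, add_comm, hp.q_smul_s_add _ pwc.1, qwc] at hq
    exact absurd hq one_ne_zero

/-- An element of the centraliser of the second base involution exchanging `s` and `s z`. -/
theorem exists_swap_c : ∃ k, k * z = z * k ∧ k * (yc * vc) = yc * vc * k ∧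
    k * s * k⁻¹ = s * z := by
  obtain ⟨pwc, pdc, qwc, qdc, bdw, wc0⟩ := consts_c
  obtain ⟨⟨w1, w2, w3⟩, ⟨r1, r2, r3⟩, hfixv, hmove⟩ := sw_ok
  have h := hA.fr
  have hp := hA.md.hp
  obtain ⟨e, he, hed⟩ := h.map_surj (f8 + dc)
  have hez := h.ci.comm e he
  have hes : e * s * e⁻¹ = s * z := h.conj_eq_mul_z he hA.mem (by
    rw [hed, hA.img, map_add, LinearMap.add_apply, hp.bfs, pdc.1, add_zero])
  obtain ⟨v2, hv2, hx2, hv2φ⟩ := hA.shift hb.yc hb.vc he
  have hv2d : φ v2 = dc + wc := by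
    rw [hv2φ, hed, hb.vcd]
    have i1 : b8 (f8 + dc) s8 = 1 := by
      rw [map_add, LinearMap.add_apply, hp.bfs, pdc.1, add_zero]
    have i2 : b8 (f8 + dc) wc = 1 := by
      rw [map_add, LinearMap.add_apply, sep_data.2.2.1, bdw, zero_add]
    rw [i1, i2, qwc, one_mul, show (1 : ZMod 2) + 1 = 0 from rfl, one_smul, zero_smul, add_zero,
      add_comm]
  obtain ⟨c1, hc1, hc1a⟩ := h.act_pair w1 w2 w3
  obtain ⟨c2, hc2, hc2a⟩ := h.act_pair r1 r2 r3
  have hc21 : ∀ v, h.act (c2 * c1) v = pairMap b8 sw.2.1 sw.2.2 (pairMap b8 sw.1.1 sw.1.2 v) :=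
    fun v => by rw [h.act_mul hc2 hc1, hc1a, hc2a]
  obtain ⟨c, hc, hcs, hcact⟩ := hA.exists_fix (h.mul_comm_z hc2 hc1)
    ((hc21 s8).trans (hfixv s8 (Or.inl rfl)))
  have hc0 : hA.fr.act c s8 = s8 := by rw [hcact]; exact (hc21 s8).trans (hfixv s8 (Or.inl rfl))
  have hcw : hA.fr.act c wc = wc := by rw [hcact]; exact (hc21 wc).trans (hfixv wc (Or.inr rfl))
  have hcd : hA.fr.act c (dc + wc) = dc := by rw [hcact]; exact (hc21 _).trans hmove
  have hu := hA.hasW_conj hc hcs hc0 (by rw [hcw]; exact pwc) hb.yc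
  rw [hcw] at hu
  obtain ⟨j, hj, hje⟩ := hA.hasW_congr hb.yc hu
  have hjQ : j ∈ Q := by
    rcases hj with rfl | rfl | rfl | rfl
    · exact one_mem _
    · exact h.ci.mem
    · exact hA.mem
    · exact mul_mem hA.mem h.ci.mem
  set v3 := j * (c * v2 * c⁻¹) with hv3
  have hv3Q : v3 ∈ Q := mul_mem hjQ (h.conj_memQ hc hv2)
  obtain ⟨α, hα⟩ : ∃ α : ZMod 2, φ v3 = α • s8 + dc := by
    rw [hv3, h.map_mul _ hjQ _ (h.conj_memQ hc hv2), ← h.act_map hc hv2, hv2d]
    rcases hA.inter_img hjQ (hA.X_memS hj) with r | r <;> rw [r]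
    · exact ⟨0, by rw [zero_smul]; exact congrArg (0 + ·) hcd⟩
    · exact ⟨1, by rw [one_smul]; exact congrArg (s8 + ·) hcd⟩
  have hcx : c * (e * (yc * vc) * e⁻¹) * c⁻¹ = yc * v3 := by
    rw [hx2]
    calc c * (yc * v2) * c⁻¹ = (c * yc * c⁻¹) * (c * v2 * c⁻¹) := by group
      _ = yc * v3 := by rw [hje, hv3, mul_assoc]
  obtain ⟨e2, he2, he2d⟩ := h.map_surj (α • dc)
  obtain ⟨v4, hv4, hx4, hv4φ⟩ := hA.shift hb.yc hv3Q he2
  have hv4d : φ v4 = dc := by
    rw [hv4φ, he2d, hα]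
    simp only [map_smul, LinearMap.smul_apply, pdc.1, bdw, smul_eq_mul, mul_zero, mul_one, zero_smul,
      zero_mul, add_zero, zero_add]
    rw [← add_assoc, add_self', zero_add]
  have he2s : e2 * s = s * e2 := (hA.img_comm he2).2 (by rw [he2d]; simp [pdc.1])
  have hcomm : ∀ {m : G}, m * z = z * m → m * s = s * m → m * (s * z) * m⁻¹ = s * z := fun {m} h1 h2 => by
    calc m * (s * z) * m⁻¹ = (m * s) * z * m⁻¹ := by group
      _ = s * (m * z) * m⁻¹ := by rw [h2]; group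
      _ = s * z := by rw [h1]; group
  have hk0 : e2 * c * e * s * (e2 * c * e)⁻¹ = s * z := by
    calc e2 * c * e * s * (e2 * c * e)⁻¹ = e2 * (c * (e * s * e⁻¹) * c⁻¹) * e2⁻¹ := by group
      _ = s * z := by rw [hes, hcomm hc hcs, hcomm (h.ci.comm e2 he2) he2s]
  have hk0z : e2 * c * e * z = z * (e2 * c * e) :=
    h.mul_comm_z (h.mul_comm_z (h.ci.comm e2 he2) hc) hez
  have hk0x : e2 * c * e * (yc * vc) * (e2 * c * e)⁻¹ = yc * v4 := by
    calc e2 * c * e * (yc * vc) * (e2 * c * e)⁻¹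
        = e2 * (c * (e * (yc * vc) * e⁻¹) * c⁻¹) * e2⁻¹ := by group
      _ = yc * v4 := by rw [hcx, hx4]
  rcases h.eq_or_of_map_eq hv4 hb.vc (hv4d.trans hb.vcd.symm) with r | r
  · rw [r] at hk0x
    exact ⟨_, hk0z, mul_inv_eq_iff_eq_mul.1 hk0x, hk0⟩
  · obtain ⟨p, hpQ, hpn, hpv⟩ := h.exists_sign hb.vc (n := wc) (by rw [hb.vcd]; exact aux_c.2.1)
    have hpz := h.ci.comm p hpQ
    have hps : p * s = s * p := (hA.img_comm hpQ).2 (by rw [hpn]; exact pwc.1)
    have hpy : p * yc = yc * p := hA.commute_of_perp hpQ hps hb.yc (by rw [hpn]; exact aux_c.1)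
    refine ⟨p * (e2 * c * e), h.mul_comm_z hpz hk0z, mul_inv_eq_iff_eq_mul.1 ?_, ?_⟩
    · calc p * (e2 * c * e) * (yc * vc) * (p * (e2 * c * e))⁻¹
          = p * (e2 * c * e * (yc * vc) * (e2 * c * e)⁻¹) * p⁻¹ := by group
        _ = (p * yc * p⁻¹) * (p * vc * p⁻¹) * (p * z * p⁻¹) := by rw [hk0x, r]; group
        _ = yc * vc := by
          rw [hpy, mul_inv_cancel_right, hpv, hpz, mul_inv_cancel_right, mul_assoc, mul_assoc,
            h.ci.sq, mul_one]
    · calc p * (e2 * c * e) * s * (p * (e2 * c * e))⁻¹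
          = p * (e2 * c * e * s * (e2 * c * e)⁻¹) * p⁻¹ := by group
        _ = s * z := by rw [hk0, hcomm hpz hps]

/-- The only conjugate of `z` centralising the relevant subgroup is `z`. -/
theorem eq_z_of_central (hdich : Dich hA.fr) {y m : G} (hyz : y * z = z * y) (hy : IsConj z y)
    (hym : y * m = m * y) (hms : m * s * m⁻¹ = s * z)
    (hcomm : ∀ a ∈ Q, a * (yc * vc) = yc * vc * a → y * a = a * y) : y = z := by
  have h := hA.fr
  have hp := hA.md.hp
  have hqf := hp.qf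
  have hy2 : y * y = 1 := by
    obtain ⟨k, rfl⟩ := isConj_iff.1 hy
    rw [show k * z * k⁻¹ * (k * z * k⁻¹) = k * (z * z) * k⁻¹ by group, h.ci.sq]; group
  have hy1 : y ≠ 1 := fun e => h.ci.ne_one (by
    subst e
    obtain ⟨k, hk⟩ := isConj_iff.1 hy
    exact conj_eq_one_iff.1 hk)
  have hP : ∀ v, (v = s8 ∨ v = E0 ∨ v = F0 ∨ v = E1 ∨ v = E2) →
      ∃ a ∈ Q, φ a = v ∧ y * a = a * y := fun v hv => by
    obtain ⟨a, ha, rfl⟩ := h.map_surj v
    obtain ⟨p1, p2, p3⟩ := perpC_data _ hv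
    exact ⟨a, ha, rfl, hcomm a ha (comm_c hb ha p1 p2 p3)⟩
  by_cases hyQ : y ∈ Q
  · by_contra hne
    have hperp : ∀ v, (v = s8 ∨ v = E0 ∨ v = F0 ∨ v = E1 ∨ v = E2) → b8 (φ y) v = 0 := fun v hv => by
      obtain ⟨a, ha, rfl, hya⟩ := hP v hv
      exact (h.map_comm y hyQ a ha).1 hya
    have hys : φ y = φ s := hA.img.symm ▸ axis_of_perp (φ y) ((h.map_sq y hyQ).1 hy2)
      (h.map_ne hyQ hy1 hne) (hperp _ (by simp)) (hperp _ (by simp)) (hperp _ (by simp))
      (hperp _ (by simp)) (hperp _ (by simp))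
    rcases h.eq_or_of_map_eq hyQ hA.mem hys with e | e <;> rw [e] at hym
    · rw [← hym, mul_inv_cancel_right] at hms
      exact h.ci.ne_one (left_eq_mul.1 hms)
    · have e2 : m * s * m⁻¹ * m = s * z * m := by rw [hms]
      rw [inv_mul_cancel_right, hym, ← mul_assoc] at e2
      exact h.ci.ne_one (left_eq_mul.1 e2)
  have hfix : ∀ v, (v = s8 ∨ v = E0 ∨ v = F0 ∨ v = E1 ∨ v = E2) → hA.fr.act y v = v := fun v hv => by
    obtain ⟨a, ha, rfl, hya⟩ := hP v hv
    rw [hA.fr.act_map hyz ha, hya, mul_inv_cancel_right]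
  rcases hdich y hyz hyQ (by rw [hy2]; exact one_mem _) with ⟨a, hqa, ha0, -, ⟨b, hba⟩, htr⟩ | h4
  · have hperp : ∀ v, (v = s8 ∨ v = E0 ∨ v = F0 ∨ v = E1 ∨ v = E2) → b8 a v = 0 := fun v hv => by
      rw [← hba, disp_symm hyz hy2, hfix v hv, add_self', map_zero]
    have has := axis_of_perp a hqa ha0 (hperp _ (by simp)) (hperp _ (by simp)) (hperp _ (by simp))
      (hperp _ (by simp)) (hperp _ (by simp))
    have htr' : ∀ t, b8 t s8 = 0 → h.act y t = t ∨ h.act y t = t + s8 := has ▸ htr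
    obtain ⟨w, u, v, hye, hu, hw0, -, -, -, -, hact⟩ :=
      hA.decompose hyz hy2 hyQ (hfix _ (by simp)) htr'
    have hbw : ∀ v, b8 v s8 = 0 → hA.fr.act y v = v → b8 v w = 0 := fun v hv hfx => by
      rw [hact, hp.rho_of_perp _ hv] at hfx
      refine (z2 _).resolve_right fun e => ?_
      rw [e, one_smul, add_eq_left] at hfx
      have hf := hp.bsf
      rw [show b8 s8 f8 = b8 0 f8 from congrArg (fun t => b8 t f8) hfx] at hf
      simp at hf
    have hw : ∀ v, (v = s8 ∨ v = E0 ∨ v = F0 ∨ v = E1 ∨ v = E2) → b8 w v = 0 := fun v hv => by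
      rw [hqf.symm]; exact hbw v (perpC_data v hv).1 (hfix v hv)
    have hqw : q8 w = 1 := (vec_of_perp w (mem_dList w hu.2.1) (hw _ (by simp)) (hw _ (by simp))
      (hw _ (by simp)) (hw _ (by simp))).resolve_left hw0
    rcases classify_fixed hb hyz hy2 hyQ (hfix _ (by simp)) htr' with hn | ⟨c, hc, hc0, hce | hce⟩
    · exfalso
      have e := hA.alt_of_nearQ hyz hy2 hn f8
      rw [hact, disp_rho hA hu.2.1, hp.bfs, one_mul, hqw] at e
      exact one_ne_zero e
    · exfalso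
      have e := disp_conj hA hyz hc f8
      rw [hce, (base_a hb).2.2.2.1, disp_rho hA consts_a.1, consts_a.2.2.1, mul_zero, hact,
        disp_rho hA hu.2.1, hp.bfs, one_mul, hqw] at e
      exact zero_ne_one e
    · exact absurd (hy.trans (isConj_iff.2 ⟨c, hce⟩)) (not_conj_c hb)
  · exfalso
    obtain ⟨ye, hye⟩ := h4.2 E0 (hfix _ (by simp))
    have e : b8 E0 F0 = 0 := by
      rw [← hye, disp_symm hyz hy2, hfix F0 (by simp), add_self', map_zero]
    rw [sep_data.1] at e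
    exact one_ne_zero e

/-- The outer base involutions are not conjugate. -/
theorem not_conj_ac (hdich : Dich hA.fr) : ¬ IsConj (ua * va) (yc * vc) := by
  classical
  haveI : Fact (Nat.Prime 2) := ⟨Nat.prime_two⟩
  have h := hA.fr
  obtain ⟨za, -, -, -, -⟩ := base_a hb
  obtain ⟨zc', -, -, -, -⟩ := base_c hb
  set ta := ua * va with hta
  set tc := yc * vc with htc
  intro hconj
  set K := stab8 hA.fr
  set StA := K ⊓ Subgroup.centralizer ({ta} : Set G)
  set StC := K ⊓ Subgroup.centralizer ({tc} : Set G)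
  have hKA := card_orbit K ta
  have hKC := card_orbit K tc
  rw [card_conj_base hA hb 0 ta (by rw [if_pos rfl]), if_pos rfl] at hKA
  rw [card_conj_base hA hb 1 tc (by rw [if_neg one_ne_zero]), if_neg one_ne_zero] at hKC
  have hSt : 15 * Nat.card StA = 8 * Nat.card StC := by
    have e := hKA.symm.trans hKC
    show 15 * Nat.card ↥(K ⊓ Subgroup.centralizer ({ta} : Set G)) =
      8 * Nat.card ↥(K ⊓ Subgroup.centralizer ({tc} : Set G))
    omega
  have hmemC : ∀ k, k * z = z * k → k * tc = tc * k → k ∈ StC := fun k h1 h2 =>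
    Subgroup.mem_inf.2 ⟨⟨h1, fix_axis hb h1 h2⟩, Subgroup.mem_centralizer_singleton_iff.2 h2⟩
  have hStC : ∀ k ∈ StC, k * z = z * k ∧ k * tc = tc * k := fun k hk =>
    ⟨hk.1.1, Subgroup.mem_centralizer_singleton_iff.1 hk.2⟩
  -- a `2`-element exchanging `s` and `s z`
  obtain ⟨k, hkz, hkt, hks⟩ := exists_swap_c hb
  obtain ⟨a, j, hordk⟩ : ∃ a j, orderOf k = 2 ^ a * (2 * j + 1) := by
    obtain ⟨a, m, hm, e⟩ := Nat.exists_eq_two_pow_mul_odd (orderOf_pos k).ne'
    obtain ⟨j, rfl⟩ := hm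
    exact ⟨a, j, e⟩
  set m := k ^ (2 * j + 1) with hm
  have hms : m * s * m⁻¹ = s * z := by
    refine conj_odd_pow hks ?_ j
    calc k * (s * z) * k⁻¹ = (k * s * k⁻¹) * (k * z * k⁻¹) := by group
      _ = s := by rw [hks, hkz, mul_inv_cancel_right, mul_assoc, h.ci.sq, mul_one]
  have hmC : m ∈ StC := pow_mem (hmemC k hkz hkt) _
  have hmp : IsPGroup 2 (Subgroup.zpowers (⟨m, hmC⟩ : StC)) := by
    have hd : orderOf (⟨m, hmC⟩ : StC) ∣ 2 ^ a := by
      refine orderOf_dvd_of_pow_eq_one (Subtype.ext ?_)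
      show m ^ 2 ^ a = 1
      rw [hm, ← pow_mul, mul_comm, ← hordk, pow_orderOf_eq_one]
    obtain ⟨i, -, hi⟩ := (Nat.dvd_prime_pow Nat.prime_two).1 hd
    exact IsPGroup.of_card (n := i) (by rw [Nat.card_zpowers, hi])
  obtain ⟨P, hPm⟩ := hmp.exists_le_sylow
  set S := (P : Subgroup StC).map StC.subtype with hS
  have hSle : S ≤ StC := Subgroup.map_subtype_le _
  have hnormal : ∀ N : Subgroup G, IsPGroup 2 N → N ≤ StC → (∀ c ∈ StC, ∀ n ∈ N, c * n * c⁻¹ ∈ N) →
      N ≤ S := by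
    intro N hN hle hc
    haveI : (N.subgroupOf StC).Normal := ⟨fun n hn c => hc c.1 c.2 n.1 hn⟩
    have hp : IsPGroup 2 (N.subgroupOf StC) :=
      hN.of_equiv (Subgroup.subgroupOfEquivOfLe hle).symm
    obtain ⟨P₁, hP₁⟩ := hp.exists_le_sylow
    obtain ⟨c, hcP⟩ := MulAction.exists_smul_eq StC P₁ P
    intro x hx
    refine ⟨⟨x, hle hx⟩, ?_, rfl⟩
    show (⟨x, hle hx⟩ : StC) ∈ (P : Subgroup StC)
    rw [← hcP, Sylow.coe_subgroup_smul, Subgroup.mem_pointwise_smul_iff_inv_smul_mem]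
    have : c⁻¹ * ⟨x, hle hx⟩ * c⁻¹⁻¹ ∈ N.subgroupOf StC :=
      Subgroup.Normal.conj_mem (H := N.subgroupOf StC) inferInstance (⟨x, hle hx⟩ : StC) hx c⁻¹
    refine hP₁ ?_
    simpa [MulAut.smul_def, mul_assoc] using this
  have hzS : z ∈ S := by
    refine hnormal (Subgroup.zpowers z) (IsPGroup.of_card (n := 1) ?_)
      (Subgroup.zpowers_le.2 (hmemC z rfl zc'.symm)) (fun c hc n hn => ?_) (Subgroup.mem_zpowers z)
    · rw [Nat.card_zpowers, orderOf_eq_prime (by rw [pow_two, h.ci.sq]) h.ci.ne_one, pow_one]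
    · obtain ⟨i, rfl⟩ := Subgroup.mem_zpowers_iff.1 hn
      have hcz : Commute c (z ^ i) := Commute.zpow_right (hStC c hc).1 i
      rw [hcz.eq, mul_inv_cancel_right]
      exact hn
  have hQS : ∀ a ∈ Q, a * tc = tc * a → a ∈ S := by
    intro a ha hat
    refine hnormal (Q ⊓ StC) (h.ci.isPGroup.to_le inf_le_left) inf_le_right (fun c hc n hn => ?_)
      ⟨ha, hmemC a (h.ci.comm a ha) hat⟩
    exact ⟨h.conj_memQ (hStC c hc).1 hn.1, StC.mul_mem (StC.mul_mem hc hn.2) (StC.inv_mem hc)⟩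
  have hmS : m ∈ S := ⟨⟨m, hmC⟩, hPm (Subgroup.mem_zpowers _), rfl⟩
  obtain ⟨n, hn⟩ := IsPGroup.iff_card.1 P.isPGroup'
  have hScard : Nat.card S = 2 ^ n := by
    rw [hS, Subgroup.card_map_of_injective (Subgroup.subtype_injective _)]; exact hn
  -- `S` is not properly contained in a `2`-subgroup of the centraliser
  set CG := Subgroup.centralizer ({tc} : Set G)
  have hSCG : S ≤ CG := hSle.trans inf_le_right
  have hmax : ¬ 2 ^ (n + 1) ∣ Nat.card CG := by
    intro hd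
    obtain ⟨T, hT, hST⟩ := Sylow.exists_subgroup_card_pow_succ hd
      (H := S.subgroupOf CG) (by rw [Nat.card_congr (Subgroup.subgroupOfEquivOfLe hSCG).toEquiv, hScard])
    set T' := T.map CG.subtype with hT'
    have hT'card : Nat.card T' = 2 ^ (n + 1) := by
      rw [hT', Subgroup.card_map_of_injective (Subgroup.subtype_injective _), hT]
    have hST' : S ≤ T' := fun x hx => ⟨⟨x, hSCG hx⟩, hST hx, rfl⟩
    have hidx : (S.subgroupOf T').index = 2 := by
      have e := Subgroup.card_mul_index (S.subgroupOf T')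
      rw [Nat.card_congr (Subgroup.subgroupOfEquivOfLe hST').toEquiv, hScard, hT'card, pow_succ] at e
      exact Nat.eq_of_mul_eq_mul_left (by positivity) e
    haveI := Subgroup.normal_of_index_eq_two hidx
    have hTle : T' ≤ StC := by
      intro x hx
      have hxt : x * tc = tc * x := by
        obtain ⟨x', -, rfl⟩ := hx
        exact Subgroup.mem_centralizer_singleton_iff.1 x'.2
      have hnorm : ∀ y ∈ S, x⁻¹ * y * x ∈ S := fun y hy => by
        have := Subgroup.Normal.conj_mem (H := S.subgroupOf T') inferInstance ⟨y, hST' hy⟩ hy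
          (⟨x, hx⟩⁻¹ : T')
        simpa [Subgroup.mem_subgroupOf] using this
      set y := x * z * x⁻¹ with hy
      have hycomm : ∀ a ∈ S, y * a = a * y := fun a ha => by
        have e := (hStC _ (hSle (hnorm a ha))).1
        calc y * a = x * (z * (x⁻¹ * a * x)) * x⁻¹ := by rw [hy]; group
          _ = x * ((x⁻¹ * a * x) * z) * x⁻¹ := by rw [e]
          _ = a * y := by rw [hy]; group
      have hyz : y = z := eq_z_of_central hb hdich (hycomm z hzS) (isConj_iff.2 ⟨x, rfl⟩)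
        (hycomm m hmS) hms fun a ha hat => hycomm a (hQS a ha hat)
      refine hmemC x ?_ hxt
      calc x * z = y * x := by rw [hy, inv_mul_cancel_right]
        _ = z * x := by rw [hyz]
    have hTp : IsPGroup 2 (T'.subgroupOf StC) :=
      (IsPGroup.of_card hT'card).of_equiv (Subgroup.subgroupOfEquivOfLe hTle).symm
    have hPT : (P : Subgroup StC) ≤ T'.subgroupOf StC := fun x hx => hST' ⟨x, hx, rfl⟩
    have e := P.is_maximal' hTp hPT
    have e2 : Nat.card (T'.subgroupOf StC) = Nat.card (P : Subgroup StC) := by rw [e]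
    rw [Nat.card_congr (Subgroup.subgroupOfEquivOfLe hTle).toEquiv, hT'card, hn, pow_succ] at e2
    have hpos : 0 < 2 ^ n := by positivity
    omega
  -- compare
  have hdvd : 2 ^ n ∣ Nat.card StC := hScard ▸ Subgroup.card_dvd_of_le hSle
  have h8 : 2 ^ (n + 1) ∣ Nat.card StA := by
    have h1 : 2 ^ (n + 3) ∣ 15 * Nat.card StA := by
      rw [hSt, pow_add, mul_comm]
      exact Nat.mul_dvd_mul dvd_rfl hdvd
    exact (pow_dvd_pow 2 (by omega)).trans
      ((Nat.Coprime.pow_left _ (by norm_num)).dvd_of_dvd_mul_left h1)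
  have hCA : Nat.card (Subgroup.centralizer ({ta} : Set G)) = Nat.card CG := by
    obtain ⟨c, hc⟩ := isConj_iff.1 hconj
    refine Nat.card_congr
      { toFun := fun x => ⟨c * x * c⁻¹, Subgroup.mem_centralizer_singleton_iff.2 ?_⟩
        invFun := fun x => ⟨c⁻¹ * x * c, Subgroup.mem_centralizer_singleton_iff.2 ?_⟩
        left_inv := fun x => Subtype.ext (by simp [mul_assoc])
        right_inv := fun x => Subtype.ext (by simp [mul_assoc]) }
    · have hx := Subgroup.mem_centralizer_singleton_iff.1 x.2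
      rw [← hc]
      calc c * x * c⁻¹ * (c * ta * c⁻¹) = c * ((x : G) * ta) * c⁻¹ := by group
        _ = _ := by rw [hx]; group
    · have hx := Subgroup.mem_centralizer_singleton_iff.1 x.2
      have hc' : ta = c⁻¹ * tc * c := by rw [← hc]; group
      rw [hc']
      calc c⁻¹ * x * c * (c⁻¹ * tc * c) = c⁻¹ * ((x : G) * tc) * c := by group
        _ = _ := by rw [hx]; group
  exact hmax (hCA ▸ h8.trans (Subgroup.card_dvd_of_le inf_le_right))

end Cfsg.Agent.Co1Type
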