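import Cfsg.Agent.ExtraTwo.Near
import Cfsg.Agent.ExtraTwo.Pairing

/-!
Involutions centralising `z` whose action has a singular axis.
-/

set_option autoImplicit false

namespace Cfsg.Agent.ExtraTwo

open Cfsg.Agent.LargeExtra Cfsg.Agent.TTClass.OrthF2

variable {G : Type*} [Group G] [Finite G] {ι : Type} [Fintype ι] {z : G} {Q : Subgroup G}
  {q : (ι → ZMod 2) → ZMod 2}
  {B : (ι → ZMod 2) →ₗ[ZMod 2] (ι → ZMod 2) →ₗ[ZMod 2] ZMod 2} {φ : G → ι → ZMod 2}
  {s0 f0 : ι → ZMod 2} {g s : G}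

namespace Frame

variable (h : Frame z Q q B φ)
include h

omit [Finite G] in
theorem mul_comm_z {a b : G} (ha : a * z = z * a) (hb : b * z = z * b) :
    a * b * z = z * (a * b) := by
  rw [mul_assoc, hb, ← mul_assoc, ha, mul_assoc]

omit [Finite G] in
theorem conj_comm_z {a b : G} (ha : a * z = z * a) (hb : b * z = z * b) :
    a * b * a⁻¹ * z = z * (a * b * a⁻¹) :=
  h.mul_comm_z (h.mul_comm_z ha hb) (Commute.inv_left ha).eq

omit [Finite G] in
theorem inv_conj_memQ {c a : G} (hc : c * z = z * c) (ha : a ∈ Q) : c⁻¹ * a * c ∈ Q := by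
  have := h.conj_memQ (c := c⁻¹) (Commute.inv_left hc).eq ha
  rwa [inv_inv] at this

omit [Finite G] in
theorem act_inv_act {c : G} (hc : c * z = z * c) (x : ι → ZMod 2) :
    h.act c⁻¹ (h.act c x) = x := by
  rw [← h.act_mul (Commute.inv_left hc).eq hc, inv_mul_cancel, h.act_one]

omit [Finite G] in
theorem act_act_inv {c : G} (hc : c * z = z * c) (x : ι → ZMod 2) :
    h.act c (h.act c⁻¹ x) = x := by
  rw [← h.act_mul hc (Commute.inv_left hc).eq, mul_inv_cancel, h.act_one]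

omit [Finite G] in
theorem act_conj {c x : G} (hc : c * z = z * c) (hx : x * z = z * x) (v : ι → ZMod 2) :
    h.act (c * x * c⁻¹) (h.act c v) = h.act c (h.act x v) := by
  rw [← h.act_mul (h.conj_comm_z hc hx) hc, inv_mul_cancel_right, h.act_mul hc hx]

omit [Finite G] in
theorem act_pair {u v : ι → ZMod 2} (qu : q u = 1) (qv : q v = 1) (huv : B u v = 1) :
    ∃ c, c * z = z * c ∧ ∀ x, h.act c x = pairMap B u v x := by
  obtain ⟨c, hc, hca⟩ := h.lift u v qu qv huv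
  refine ⟨c, hc, fun x => ?_⟩
  obtain ⟨a, ha, rfl⟩ := h.map_surj x
  rw [h.act_map hc ha, hca a ha]

theorem exists_sign {v : G} (hv : v ∈ Q) {n : ι → ZMod 2} (hn : B n (φ v) = 1) :
    ∃ p ∈ Q, φ p = n ∧ p * v * p⁻¹ = v * z := by
  obtain ⟨p, hp, rfl⟩ := h.map_surj n
  exact ⟨p, hp, rfl, h.conj_eq_mul_z hp hv hn⟩

end Frame

namespace At

variable (hA : At z Q q B φ s0 f0 g s)
include hA

theorem sq_eq_s {u : G} {w : ι → ZMod 2} (hu : hA.HasW u w) (hq : q w = 1) : u * u = s :=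
  (hA.sq_S hu.1.2).resolve_left fun e => by
    rw [(hA.sq_iff hu).1 e] at hq
    exact zero_ne_one hq

theorem act_s {u : G} {w : ι → ZMod 2} (hu : hA.HasW u w) : hA.fr.act u s0 = s0 := by
  rw [hu.2.2, hA.md.hp.rho_s w hu.2.1]

/-- The shape of an involution fixing the axis `s0`. -/
theorem decompose {x : G} (hx : x * z = z * x) (hx2 : x * x = 1) (hxQ : x ∉ Q)
    (hxs : hA.fr.act x s0 = s0)
    (htriv : ∀ a, B a s0 = 0 → hA.fr.act x a = a ∨ hA.fr.act x a = a + s0) :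
    ∃ w u v, x = u * v ∧ hA.HasW u w ∧ w ≠ 0 ∧ v ∈ Q ∧ v * s = s * v ∧ B (φ v) w = q w ∧
      q (φ v) = q w ∧ ∀ a, hA.fr.act x a = rho q B s0 w a := by
  have h := hA.fr
  have hp := hA.md.hp
  obtain ⟨w, hw, hact⟩ := hp.exists_rho (hA.fr.act_add hx) (fun a => hA.fr.act_q hx a) hxs htriv
  obtain ⟨u, hu⟩ := hA.exists_lift hw
  have hui : u⁻¹ * z = z * u⁻¹ := (Commute.inv_left hu.1.1).eq
  have hv : u⁻¹ * x ∈ Q := by
    refine hA.fr.mem_of_act (h.mul_comm_z hui hx) fun a => ?_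
    rw [hA.fr.act_mul hui hx, hact, ← hu.2.2, hA.fr.act_inv_act hu.1.1]
  have hw0 : w ≠ 0 := fun e => hxQ (hA.fr.mem_of_act hx fun a => by rw [hact, e, hp.rho_zero])
  obtain ⟨v, rfl⟩ : ∃ v, x = u * v := ⟨u⁻¹ * x, (mul_inv_cancel_left u x).symm⟩
  rw [inv_mul_cancel_left] at hv
  have hu2 : u * u ∈ Q ∧ φ (u * u) = q w • s0 := by
    rcases z2 (q w) with k | k <;> rw [k]
    · rw [(hA.sq_iff hu).2 k, zero_smul]
      exact ⟨one_mem _, h.map_one⟩
    · rw [hA.sq_eq_s hu k, one_smul]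
      exact ⟨hA.mem, hA.img⟩
  have huvu : u * v * u⁻¹ ∈ Q := h.conj_memQ hu.1.1 hv
  have heq : rho q B s0 w (φ v) + q w • s0 + φ v = 0 := by
    rw [← hu.2.2, hA.fr.act_map hu.1.1 hv, ← hu2.2, ← h.map_mul _ huvu _ hu2.1,
      ← h.map_mul _ (mul_mem huvu hu2.1) _ hv, ← h.map_one]
    congr 1
    rw [← hx2]
    group
  have heq' : B (φ v) s0 • w + (B (φ v) w + B (φ v) s0 * q w + q w) • s0 = 0 := by
    rw [rho] at heq
    rw [add_smul _ (q w)]
    rw [← heq]
    rw [add_comm _ (φ v)]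
    conv_rhs => rw [add_assoc (φ v) _ _, add_assoc (φ v) _ _, add_left_self]
    abel
  have hvs0 : B (φ v) s0 = 0 := by
    refine (z2 _).resolve_right fun e => hw0 ?_
    rw [e, one_smul] at heq'
    have e2 := congrArg (fun t => B t f0) heq'
    simp [hw.2, hp.bsf] at e2
    have e2' : B (φ v) w + 1 * q w + q w = 0 := by rw [one_mul]; exact e2
    rw [e2', zero_smul, add_zero] at heq'
    exact heq'
  have hvw : B (φ v) w = q w := by
    rw [hvs0, zero_smul, zero_add, zero_mul, add_zero] at heq'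
    have e2 := congrArg (fun t => B t f0) heq'
    simp [hp.bsf] at e2
    exact CharTwo.add_eq_zero.1 e2
  have hvs : v * s = s * v := (hA.img_comm hv).2 hvs0
  refine ⟨w, u, v, rfl, hu, hw0, hv, hvs, hvw, ?_, hact⟩
  rcases z2 (q w) with k | k <;> rw [k] at hvw ⊢
  · have hvu := hA.commute_of_perp hv hvs hu hvw
    refine (h.map_sq v hv).1 ?_
    rwa [show u * v * (u * v) = u * (v * u) * v by group, hvu,
      show u * (u * v) * v = u * u * (v * v) by group, (hA.sq_iff hu).2 k, one_mul] at hx2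
  · have hvu : v * u = s * z * u * v :=
      mul_inv_eq_iff_eq_mul.1 (hA.conj_of_not_perp hv hvs hu hvw)
    refine (z2 _).resolve_left fun e => h.ci.ne_one ?_
    rw [show u * v * (u * v) = u * (v * u) * v by group, hvu,
      show u * (s * z * u * v) * v = (u * s) * z * u * (v * v) by group, (h.map_sq v hv).2 e,
      hA.comm_s hu.1.2, mul_one, mul_assoc s u z, hu.1.1,
      show s * (z * u) * u = s * z * (u * u) by group, hA.sq_eq_s hu k, mul_assoc s z s,
      ← hA.s_comm_z, ← mul_assoc, hA.sq_s, one_mul] at hx2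
    exact hx2

/-- The square of `u v` in the non-singular case. -/
theorem sq_uv {u v : G} {w : ι → ZMod 2} (hu : hA.HasW u w) (hv : v ∈ Q) (hvs : v * s = s * v)
    (hq : q w = 1) (hB : B (φ v) w = 1) (hqv : q (φ v) = 1) : u * v * (u * v) = 1 := by
  have hvu : v * u = s * z * u * v :=
    mul_inv_eq_iff_eq_mul.1 (hA.conj_of_not_perp hv hvs hu hB)
  rw [show u * v * (u * v) = u * (v * u) * v by group, hvu,
    show u * (s * z * u * v) * v = (u * s) * z * u * (v * v) by group,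
    hA.fr.sq_eq_z hv hqv, hA.comm_s hu.1.2, mul_assoc s u z, hu.1.1,
    show s * (z * u) * u * z = s * z * (u * u) * z by group, hA.sq_eq_s hu hq, mul_assoc s z s,
    ← hA.s_comm_z, ← mul_assoc, hA.sq_s, one_mul, hA.fr.ci.sq]

/-- The effect of conjugating `u v` by an element of `Q`. -/
theorem shift {u v e : G} {w : ι → ZMod 2} (hu : hA.HasW u w) (hv : v ∈ Q) (he : e ∈ Q) :
    ∃ v' ∈ Q, e * (u * v) * e⁻¹ = u * v' ∧
      φ v' = B (φ e) s0 • w + (B (φ e) w + B (φ e) s0 * q w) • s0 + φ v := by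
  have h := hA.fr
  have hez := h.ci.comm e he
  have hm1 : u⁻¹ * e * u ∈ Q := h.inv_conj_memQ hu.1.1 he
  refine ⟨u⁻¹ * e * u * e⁻¹ * (e * v * e⁻¹), mul_mem (mul_mem hm1 (inv_mem he)) (h.conj_memQ hez hv),
    by group, ?_⟩
  have e1 : φ (e * v * e⁻¹) = φ v := by rw [← hA.fr.act_map hez hv, hA.fr.act_of_mem he]
  have e2 : φ (u⁻¹ * e * u) = rho q B s0 w (φ e) := by
    have hh : hA.fr.act u (φ (u⁻¹ * e * u)) = φ e := by
      rw [hA.fr.act_map hu.1.1 hm1]; congr 1; group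
    rw [← hh, hu.2.2, hA.md.hp.rho_mul hu.2.1 hu.2.1, add_self', hA.md.hp.rho_zero]
  rw [h.map_mul _ (mul_mem hm1 (inv_mem he)) _ (h.conj_memQ hez hv),
    h.map_mul _ hm1 _ (inv_mem he), h.map_inv he, e1, e2, rho]
  generalize φ e = p
  calc p + B p s0 • w + (B p w + B p s0 * q w) • s0 + p + φ v
      = (p + p) + (B p s0 • w + (B p w + B p s0 * q w) • s0 + φ v) := by abel
    _ = _ := by rw [add_self', zero_add]

/-- Conjugation of `u v` to a standard element with the same quotient part. -/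
theorem conj_std {u u0 v v0 : G} {w d n m : ι → ZMod 2} {α β : ZMod 2} (hu : hA.HasW u w)
    (hu0 : hA.HasW u0 w) (hv : v ∈ Q) (hv0 : v0 ∈ Q) (hv0d : φ v0 = d)
    (hm : perp2 B s0 f0 m) (hmw : B m w = 1) (hn : perp2 B s0 f0 n) (hnw : B n w = 0)
    (hnd : B n d = 1) (hφ : φ v = α • s0 + d + β • w) :
    ∃ c, c * z = z * c ∧ hA.fr.act c s0 = s0 ∧ c * (u * v) * c⁻¹ = u0 * v0 := by
  have h := hA.fr
  have hp := hA.md.hp
  obtain ⟨k, hk, rfl⟩ := hA.hasW_congr hu0 hu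
  have hkQ : k ∈ Q := by
    rcases hk with rfl | rfl | rfl | rfl
    · exact one_mem _
    · exact h.ci.mem
    · exact hA.mem
    · exact mul_mem hA.mem h.ci.mem
  obtain ⟨α', hφ'⟩ : ∃ α', φ (k * v) = α' • s0 + d + β • w := by
    rw [h.map_mul _ hkQ _ hv, hφ]
    rcases hA.inter_img hkQ (hA.X_memS hk) with r | r <;> rw [r]
    · exact ⟨α, zero_add _⟩
    · exact ⟨1 + α, by rw [add_smul, one_smul]; abel⟩
  obtain ⟨e, he, hed⟩ := h.map_surj (β • f0 + (α' + β * q w) • m)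
  obtain ⟨v2, hv2, hx2, hv2φ⟩ := hA.shift hu0 (mul_mem hkQ hv) he
  have r1 : B (φ e) s0 = β := by rw [hed]; simp [hp.bfs, hm.1]
  have r2 : B (φ e) w = α' + β * q w := by
    have e3 : B f0 w = 0 := (hp.qf.symm _ _).trans hu0.2.1.2
    rw [hed]; simp [e3, hmw]
  have hv2d : φ v2 = d := by
    rw [hv2φ, r1, r2, hφ', add_assoc α' _ _, CharTwo.add_self_eq_zero, add_zero]
    calc β • w + α' • s0 + (α' • s0 + d + β • w)
        = (β • w + β • w) + (α' • s0 + α' • s0) + d := by abel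
      _ = d := by rw [add_self', add_self', add_zero, zero_add]
  have hez := h.ci.comm e he
  have hee : e * (u0 * k * v) * e⁻¹ = u0 * v2 := by rw [← hx2]; group
  rcases h.eq_or_of_map_eq hv2 hv0 (hv2d.trans hv0d.symm) with r | r
  · exact ⟨e, hez, hA.fr.act_of_mem he s0, by rw [hee, r]⟩
  · obtain ⟨p, hpQ, hpn, hpv⟩ := h.exists_sign hv0 (n := n) (by rw [hv0d]; exact hnd)
    have hpz := h.ci.comm p hpQ
    have hps : p * s = s * p := (hA.img_comm hpQ).2 (by rw [hpn]; exact hn.1)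
    have hpy : p * u0 = u0 * p := hA.commute_of_perp hpQ hps hu0 (by rw [hpn, hnw])
    refine ⟨p * e, h.mul_comm_z hpz hez, hA.fr.act_of_mem (mul_mem hpQ he) s0, ?_⟩
    calc p * e * (u0 * k * v) * (p * e)⁻¹ = p * (e * (u0 * k * v) * e⁻¹) * p⁻¹ := by group
      _ = (p * u0 * p⁻¹) * (p * v0 * p⁻¹) * (p * z * p⁻¹) := by rw [hee, r]; group
      _ = u0 * v0 := by
        rw [hpy, mul_inv_cancel_right, hpv, hpz, mul_inv_cancel_right, mul_assoc, mul_assoc,
          h.ci.sq, mul_one]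

/-- With quotient part in the span of the axis and `w` the element is near. -/
theorem near_of_part {u v : G} {w n : ι → ZMod 2} {α β : ZMod 2} (hu : hA.HasW u w) (hv : v ∈ Q)
    (hxQ : u * v ∉ Q) (hq : q w = 0) (hn : perp2 B s0 f0 n) (hnw : B n w = 1)
    (hφ : φ v = α • s0 + β • w) : NearQ z Q (u * v) := by
  have h := hA.fr
  have hp := hA.md.hp
  obtain ⟨e, he, hed⟩ := h.map_surj (β • f0 + α • n)
  have hez := h.ci.comm e he
  obtain ⟨v2, hv2, hx2, hv2φ⟩ := hA.shift hu hv he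
  have r1 : B (φ e) s0 = β := by rw [hed]; simp [hp.bfs, hn.1]
  have r2 : B (φ e) w = α := by
    have e3 : B f0 w = 0 := (hp.qf.symm _ _).trans hu.2.1.2
    rw [hed]; simp [e3, hnw]
  have hv20 : φ v2 = 0 := by
    rw [hv2φ, r1, r2, hφ, hq, mul_zero, add_zero, add_comm (β • w) (α • s0)]
    exact add_self' _
  have hv2S : g⁻¹ * v2 * g ∈ Q := by
    rcases h.map_ker v2 hv2 hv20 with r | r <;> rw [r]
    · simp
    · exact hA.z_memS
  have hk : e⁻¹ * g * z * (e⁻¹ * g)⁻¹ = e⁻¹ * s * e := by rw [hA.eq]; group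
  have hzi : e⁻¹ * z = z * e⁻¹ := (Commute.inv_left hez).eq
  refine ⟨e⁻¹ * g, hk ▸ h.inv_conj_memQ hez hA.mem, fun r => hA.ne_z ?_,
    fun r => hxQ (by rw [r, hk]; exact h.inv_conj_memQ hez hA.mem), ?_⟩
  · rw [hk] at r
    calc s = e * (e⁻¹ * s * e) * e⁻¹ := by group
      _ = z := by rw [r, hez, mul_inv_cancel_right]
  · have hm : g⁻¹ * (u * v2) * g ∈ Q := by
      rw [show g⁻¹ * (u * v2) * g = (g⁻¹ * u * g) * (g⁻¹ * v2 * g) by group]
      exact mul_mem hu.1.2 hv2S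
    rw [← hx2] at hm
    convert hm using 1
    group

/-- A near element centralises every element of `Q` whose image it fixes. -/
theorem fix_comm_of_nearQ {x : G} (hx : x * z = z * x) (hxQ : x ∉ Q) (hn : NearQ z Q x)
    (hx2 : x * x = 1) {a : G} (ha : a ∈ Q) (hfix : hA.fr.act x (φ a) = φ a) : a * x = x * a := by
  have h := hA.fr
  have hp := hA.md.hp
  obtain ⟨k, hk, hkz, -, hkx⟩ := hn
  have hk1 : k * z * k⁻¹ ≠ 1 := fun e => h.ci.ne_one (conj_eq_one_iff.1 e)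
  have hk2 : k * z * k⁻¹ * (k * z * k⁻¹) = 1 := by
    rw [show k * z * k⁻¹ * (k * z * k⁻¹) = k * (z * z) * k⁻¹ by group, h.ci.sq]; group
  obtain ⟨c, hc, hcs⟩ := hA.exists_to hk hk2 hk1 hkz
  have hci : c⁻¹ * z = z * c⁻¹ := (Commute.inv_left hc).eq
  obtain ⟨x', rfl⟩ : ∃ x', x = c * x' * c⁻¹ := ⟨c⁻¹ * x * c, by group⟩
  have hx'z : x' * z = z * x' := by
    have := h.conj_comm_z hci hx
    rwa [show c⁻¹ * (c * x' * c⁻¹) * c⁻¹⁻¹ = x' by group] at this
  have hS : g⁻¹ * x' * g ∈ Q := by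
    refine h.conjQ_congr (a := c⁻¹ * k) ?_ ?_
    · rw [← hA.eq]
      calc c⁻¹ * k * z * (c⁻¹ * k)⁻¹ = c⁻¹ * (k * z * k⁻¹) * c := by group
        _ = s := by rw [← hcs]; group
    · convert hkx using 1; group
  obtain ⟨w, hw, hwact⟩ := hA.exists_omega ⟨hx'z, hS⟩
  have hu : hA.HasW x' w := ⟨⟨hx'z, hS⟩, hw, hwact⟩
  have hq : q w = 0 := (hA.sq_iff hu).1 (by
    rw [show x' * x' = c⁻¹ * (c * x' * c⁻¹ * (c * x' * c⁻¹)) * c by group, hx2]; group)
  have hw0 : w ≠ 0 := fun e => hxQ (h.conj_memQ hc (h.mem_of_act hx'z fun b => by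
    rw [hwact, e, hp.rho_zero]))
  obtain ⟨a', rfl⟩ : ∃ a', a = c * a' * c⁻¹ := ⟨c⁻¹ * a * c, by group⟩
  have ha' : a' ∈ Q := by
    have := h.inv_conj_memQ hc ha
    rwa [show c⁻¹ * (c * a' * c⁻¹) * c = a' by group] at this
  rw [← hA.fr.act_map hc ha', hA.fr.act_conj hc hx'z] at hfix
  have hfix' : rho q B s0 w (φ a') = φ a' := by
    rw [← hwact, ← hA.fr.act_inv_act hc (hA.fr.act x' (φ a')), hfix, hA.fr.act_inv_act hc]
  rw [rho, hq, mul_zero, add_zero, add_assoc, add_eq_left] at hfix'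
  have hs0 : B (φ a') s0 = 0 := by
    refine (z2 _).resolve_right fun e => hw0 ?_
    rw [e, one_smul] at hfix'
    have e2 := congrArg (fun t => B t f0) hfix'
    simp [hw.2, hp.bsf] at e2
    rwa [e2, zero_smul, add_zero] at hfix'
  rw [hs0, zero_smul, zero_add] at hfix'
  have hw' : B (φ a') w = 0 := by
    refine (z2 _).resolve_right fun e => ?_
    rw [e, one_smul] at hfix'
    have := hp.bsf
    simp [hfix'] at this
  have hcm := hA.commute_of_perp ha' ((hA.img_comm ha').2 hs0) hu hw'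
  calc c * a' * c⁻¹ * (c * x' * c⁻¹) = c * (a' * x') * c⁻¹ := by group
    _ = _ := by rw [hcm]; group

end At

end Cfsg.Agent.ExtraTwo
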