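import Cfsg.Agent.Co1Type.Two

/-!
The orbits of the base involutions under the stabiliser of the axis.
-/

set_option autoImplicit false
set_option maxRecDepth 100000
set_option synthInstance.maxSize 4000

namespace Cfsg.Agent.Co1Type

open Cfsg.Agent.ExtraTwo Cfsg.Agent.LargeExtra Cfsg.Agent.TTClass.OrthF2

attribute [local instance 2000] List.decidableBAll List.decidableBEx

/-- The admissible vectors. -/
def WOk (e : ZMod 2) (w : V8) : Prop :=
  (b8 w s8 = 0 ∧ b8 w f8 = 0) ∧ w ≠ 0 ∧ q8 w = e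

/-- The admissible quotient parts. -/
def POk (e : ZMod 2) (w p : V8) : Prop :=
  b8 p s8 = 0 ∧ q8 p = e ∧ b8 p w = e ∧
    (e = 0 → p + b8 p f8 • s8 ≠ 0 ∧ p + b8 p f8 • s8 ≠ w)

instance (e : ZMod 2) : DecidablePred (WOk e) := fun w => by unfold WOk; infer_instance

instance (e : ZMod 2) (w : V8) : DecidablePred (POk e w) := fun p => by unfold POk; infer_instance

theorem count_w : (dList.toFinset.filter (WOk 0)).card = 35 ∧
    (dList.toFinset.filter (WOk 1)).card = 28 := by decide +kernel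

theorem count_p0 : ∀ w ∈ dList, WOk 0 w → (Finset.univ.filter (POk 0 w)).card = 36 := by
  decide +kernel

theorem count_p1 : ∀ w ∈ dList, WOk 1 w → (Finset.univ.filter (POk 1 w)).card = 24 := by
  decide +kernel

theorem sep_fact : ∀ w ∈ dList, q8 w = 0 → w ≠ 0 → ∀ d ∈ dList, q8 d = 0 → b8 d w = 0 → d ≠ 0 →
    d ≠ w → ∃ n ∈ dList, b8 n w = 0 ∧ b8 n d = 1 := by decide +kernel

theorem count_pairs (e : ZMod 2) :
    Nat.card {t : V8 × V8 // WOk e t.1 ∧ POk e t.1 t.2} = if e = 0 then 1260 else 672 := by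
  classical
  let E : {t : V8 × V8 // WOk e t.1 ∧ POk e t.1 t.2} ≃ Σ w : {w // WOk e w}, {p // POk e w.1 p} :=
    { toFun := fun t => ⟨⟨t.1.1, t.2.1⟩, ⟨t.1.2, t.2.2⟩⟩
      invFun := fun t => ⟨(t.1.1, t.2.1), t.1.2, t.2.2⟩
      left_inv := fun _ => rfl
      right_inv := fun _ => rfl }
  have hw : Nat.card {w // WOk e w} = (dList.toFinset.filter (WOk e)).card := by
    rw [← Nat.card_eq_finsetCard]
    refine Nat.card_congr (Equiv.subtypeEquivRight fun w => ?_)
    simp only [Finset.mem_filter, List.mem_toFinset, iff_and_self]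
    exact fun hw => mem_dList w hw.1
  have hp : ∀ w, Nat.card {p // POk e w p} = (Finset.univ.filter (POk e w)).card := fun w => by
    rw [Nat.card_eq_fintype_card, Fintype.card_subtype]
  have key : ∀ n, (∀ w : {w // WOk e w}, Nat.card {p // POk e w.1 p} = n) →
      Nat.card {t : V8 × V8 // WOk e t.1 ∧ POk e t.1 t.2} = Nat.card {w // WOk e w} * n := by
    intro n hn
    rw [Nat.card_congr (E.trans (Equiv.sigmaEquivProdOfEquiv fun w =>
      Finite.equivFinOfCardEq (hn w))), Nat.card_prod, Nat.card_fin]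
  rcases z2 e with rfl | rfl
  · rw [key 36 fun w => (hp w.1).trans (count_p0 w.1 (mem_dList _ w.2.1) w.2), hw, count_w.1,
      if_pos rfl]
  · rw [key 24 fun w => (hp w.1).trans (count_p1 w.1 (mem_dList _ w.2.1) w.2), hw, count_w.2,
      if_neg one_ne_zero]

/-- The orbit formula for conjugation. -/
theorem card_orbit {G : Type*} [Group G] (K : Subgroup G) (t : G) :
    Nat.card K = Nat.card (Set.range fun k : K => (k : G) * t * (k : G)⁻¹) *
      Nat.card ↥(K ⊓ Subgroup.centralizer {t}) := by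
  classical
  let R := Set.range fun k : K => (k : G) * t * (k : G)⁻¹
  let rep : R → K := fun r => r.2.choose
  have hrep : ∀ r : R, (rep r : G) * t * (rep r : G)⁻¹ = r.1 := fun r => r.2.choose_spec
  have hm : ∀ r : R, ∀ k : K, (k : G) * t * (k : G)⁻¹ = r.1 →
      (rep r : G)⁻¹ * k ∈ K ⊓ Subgroup.centralizer {t} := fun r k hk =>
    Subgroup.mem_inf.2 ⟨K.mul_mem (K.inv_mem (rep r).2) k.2, Subgroup.mem_centralizer_singleton_iff.2 (by
      calc (rep r : G)⁻¹ * k * t = (rep r : G)⁻¹ * (k * t * (k : G)⁻¹) * k := by group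
        _ = (rep r : G)⁻¹ * (rep r * t * (rep r : G)⁻¹) * k := by rw [hk, hrep]
        _ = t * ((rep r : G)⁻¹ * k) := by group)⟩
  rw [← Nat.card_prod]
  refine Nat.card_congr
    { toFun := fun k => (⟨_, k, rfl⟩, ⟨_, hm ⟨_, k, rfl⟩ k rfl⟩)
      invFun := fun p => ⟨(rep p.1 : G) * p.2.1, mul_mem (rep p.1).2 p.2.2.1⟩
      left_inv := fun k => Subtype.ext (mul_inv_cancel_left _ _)
      right_inv := ?_ }
  rintro ⟨r, m, hm1, hm2⟩
  have hmt := Subgroup.mem_centralizer_singleton_iff.1 hm2
  have e : (⟨(rep r : G) * m * t * ((rep r : G) * m)⁻¹, ⟨⟨_, mul_mem (rep r).2 hm1⟩, rfl⟩⟩ : R) = r :=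
    Subtype.ext (by
      show (rep r : G) * m * t * ((rep r : G) * m)⁻¹ = r.1
      rw [mul_assoc (rep r : G) m t, hmt, ← hrep r]
      group)
  refine Prod.ext e (Subtype.ext ?_)
  show (rep _ : G)⁻¹ * ((rep r : G) * m) = m
  rw [e, inv_mul_cancel_left]

variable {G : Type*} [Group G] [Finite G] {z : G} {Q : Subgroup G} {φ : G → V8}
  {g s : G}

/-- The stabiliser of the axis. -/
def stab8 (h : Frame z Q q8 b8 φ) : Subgroup G where
  carrier := {c | c * z = z * c ∧ h.act c s8 = s8}
  mul_mem' ha hb := ⟨h.mul_comm_z ha.1 hb.1, by rw [h.act_mul ha.1 hb.1, hb.2, ha.2]⟩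
  one_mem' := ⟨by simp, h.act_one s8⟩
  inv_mem' := fun {c} hc => ⟨(Commute.inv_left hc.1).eq, by
    conv_lhs => rw [← hc.2]
    rw [h.act_inv_act hc.1]⟩

variable (hA : At z Q q8 b8 φ s8 f8 g s)
include hA

/-- Displacement is preserved by conjugation. -/
theorem disp_conj {x c : G} (hx : x * z = z * x) (hc : c * z = z * c) (y : V8) :
    q8 (hA.fr.act (c * x * c⁻¹) (hA.fr.act c y) + hA.fr.act c y) = q8 (hA.fr.act x y + y) := by
  have h := hA.fr
  show q8 (h.act (c * x * c⁻¹) (h.act c y) + h.act c y) = q8 (h.act x y + y)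
  rw [h.act_conj hc hx, ← h.act_add hc, h.act_q hc]

/-- The displacement of `rho`. -/
theorem disp_rho {w : V8} (hw : perp2 b8 s8 f8 w) (y : V8) :
    q8 (rho q8 b8 s8 w y + y) = b8 y s8 * q8 w := by
  have hp := hA.md.hp
  rw [rho, add_comm _ y, add_assoc y, add_left_self, hp.qf.add, map_smul, map_smul]
  rcases z2 (b8 y s8) with k | k <;> rcases z2 (b8 y w + b8 y s8 * q8 w) with k' | k' <;>
    rw [k'] <;> rw [k] <;> simp [hp.qf.zero, hp.qs, hw.1]

variable {ua va yc vc : G} (hb : Base hA ua va yc vc)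
include hb

/-- The size of the orbits. -/
theorem card_conj_base (e : ZMod 2) (t : G) (ht : t = if e = 0 then ua * va else yc * vc) :
    Nat.card (Set.range fun k : stab8 hA.fr => (k : G) * t * (k : G)⁻¹) =
      (if e = 0 then 1260 else 672) * 2 := by
  classical
  have h := hA.fr
  have hp := hA.md.hp
  have hqf := hp.qf
  obtain ⟨za, a2, aQ, aact, an⟩ := base_a hb
  obtain ⟨zc', c2, cQ, cact, cn⟩ := base_c hb
  have htz : t * z = z * t := by rw [ht]; split_ifs; exacts [za, zc']
  have ht2 : t * t = 1 := by rw [ht]; split_ifs; exacts [a2, c2]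
  have htQ : t ∉ Q := by rw [ht]; split_ifs; exacts [aQ, cQ]
  have htn : ¬ NearQ z Q t := by rw [ht]; split_ifs; exacts [an, cn]
  obtain ⟨wt, hwt, hwte, htact⟩ : ∃ wt, perp2 b8 s8 f8 wt ∧ q8 wt = e ∧
      ∀ y, hA.fr.act t y = rho q8 b8 s8 wt y := by
    rcases z2 e with rfl | rfl
    · rw [if_pos rfl] at ht; subst ht
      exact ⟨wa, consts_a.1, consts_a.2.2.1, aact⟩
    · rw [if_neg one_ne_zero] at ht; subst ht
      exact ⟨wc, consts_c.1, consts_c.2.2.1, cact⟩
  -- the parametrisation
  let P := {p : V8 × V8 // WOk e p.1 ∧ POk e p.1 p.2}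
  let L : P → G := fun p => (hA.exists_lift (w := p.1.1) p.2.1.1).choose
  have hL : ∀ p : P, hA.HasW (L p) p.1.1 := fun p =>
    (hA.exists_lift (w := p.1.1) p.2.1.1).choose_spec
  let V : P × Bool → G := fun p => (h.map_surj p.1.1.2).choose * cond p.2 z 1
  have hV : ∀ p, V p ∈ Q ∧ φ (V p) = p.1.1.2 := fun p => by
    obtain ⟨hm, he⟩ := (h.map_surj p.1.1.2).choose_spec
    rcases p with ⟨p, _ | _⟩
    · exact ⟨mul_mem hm (one_mem _), by simpa [V] using he⟩
    · refine ⟨mul_mem hm h.ci.mem, ?_⟩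
      show φ (_ * z) = _
      rw [h.map_mul _ hm _ h.ci.mem, h.map_z, add_zero]
      exact he
  let X : P × Bool → G := fun p => L p.1 * V p
  have hmem : ∀ p, X p ∈ Set.range fun k : stab8 hA.fr => (k : G) * t * (k : G)⁻¹ := by
    intro p
    obtain ⟨⟨hw, hw0, hwq⟩, hps, hpq, hpw, hpd⟩ := p.1.2
    have hu := hL p.1
    obtain ⟨hv, hvφ⟩ := hV p
    set u := L p.1
    set v := V p
    have hvs : v * s = s * v := (hA.img_comm hv).2 (by rw [hvφ]; exact hps)
    have hxz : u * v * z = z * (u * v) := h.mul_comm_z hu.1.1 (h.ci.comm v hv)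
    have hxact : ∀ y, hA.fr.act (u * v) y = rho q8 b8 s8 p.1.1.1 y := fun y => by
      rw [hA.fr.act_mul hu.1.1 (h.ci.comm v hv), hA.fr.act_of_mem hv, hu.2.2]
    have hx2 : u * v * (u * v) = 1 := by
      rcases z2 e with he | he <;>
        (replace hwq := hwq.trans he; replace hpq := hpq.trans he; replace hpw := hpw.trans he)
      · have hc := hA.commute_of_perp hv hvs hu (by rw [hvφ]; exact hpw)
        rw [show u * v * (u * v) = u * (v * u) * v by group, hc,
          show u * (u * v) * v = u * u * (v * v) by group, (hA.sq_iff hu).2 hwq, one_mul]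
        exact (h.map_sq v hv).2 (by rw [hvφ]; exact hpq)
      · exact hA.sq_uv hu hv hvs hwq (by rw [hvφ]; exact hpw) (by rw [hvφ]; exact hpq)
    have hxQ : u * v ∉ Q := fun hm => hw0 (hp.rho_inj hu.2.1 hp.perp2_zero (by
      rw [← hxact, hA.fr.act_of_mem hm, hp.rho_zero]))
    rcases classify_fixed hb hxz hx2 hxQ (by rw [hxact, hp.rho_s _ hu.2.1])
      (fun y hy => by
        rw [hxact, hp.rho_of_perp _ hy]
        rcases z2 (b8 y p.1.1.1) with k | k <;> rw [k] <;> simp) with hn | ⟨c, hc, hc0, hce⟩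
    · exfalso
      rcases z2 e with he | he
      · -- fixed vectors of a near element commute
        subst he
        obtain ⟨d1, d2⟩ := hpd rfl
        have hdp : perp2 b8 s8 f8 (p.1.1.2 + b8 p.1.1.2 f8 • s8) := by
          constructor
          · simp [hps, hqf.self]
          · simp [hp.bsf, CharTwo.add_self_eq_zero]
        obtain ⟨n, hn', hn1, hn2⟩ := sep_fact _ (mem_dList _ hu.2.1) hwq hw0 _ (mem_dList _ hdp)
          (by rw [add_comm, hp.q_smul_s_add _ hps]; exact hpq)
          (by simp [hpw, hqf.symm s8 p.1.1.1, hu.2.1.1]) d1 d2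
        obtain ⟨q', hq', hqn⟩ := h.map_surj n
        have hns : b8 n s8 = 0 := (dList_perp n hn').1
        have hnv : b8 n p.1.1.2 = 1 := by
          rw [map_add, map_smul, hns, smul_zero, add_zero] at hn2
          exact hn2
        have hqs : q' * s = s * q' := (hA.img_comm hq').2 (by rw [hqn]; exact hns)
        have hcm := hA.fix_comm_of_nearQ hxz hxQ hn hx2 hq' (by
          rw [hxact, hqn, hp.rho_of_perp _ hns, hn1, zero_smul, add_zero])
        rw [← mul_assoc, hA.commute_of_perp hq' hqs hu (by rw [hqn, hn1]), mul_assoc, mul_assoc,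
          mul_right_inj] at hcm
        have e' := (h.map_comm q' hq' v hv).1 hcm
        rw [hqn, hvφ, hnv] at e'
        exact one_ne_zero e'
      · have e' := hA.alt_of_nearQ hxz hx2 hn f8
        rw [hxact, disp_rho hA hu.2.1, hp.bfs, one_mul, hwq, he] at e'
        exact one_ne_zero e'
    · have key : c * (u * v) * c⁻¹ = t := by
        have hd := disp_conj hA hxz hc f8
        rw [hxact, disp_rho hA hu.2.1, hp.bfs, one_mul, hwq] at hd
        rcases hce with r | r <;> rw [r] at hd
        · rw [aact, disp_rho hA consts_a.1, consts_a.2.2.1, mul_zero] at hd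
          rw [ht, if_pos hd.symm, r]
        · have hfs : b8 (hA.fr.act c f8) s8 = 1 := by
            have e1 := hA.fr.act_B hc f8 s8
            rw [hc0] at e1
            exact e1.trans hp.bfs
          rw [cact, disp_rho hA consts_c.1, consts_c.2.2.1, hfs, one_mul] at hd
          rw [ht, if_neg (by rw [← hd]; exact one_ne_zero), r]
      refine ⟨⟨c⁻¹, inv_mem (show c ∈ stab8 hA.fr from ⟨hc, hc0⟩)⟩, ?_⟩
      show c⁻¹ * t * c⁻¹⁻¹ = u * v
      rw [← key]; group
  let F : P × Bool → Set.range fun k : stab8 hA.fr => (k : G) * t * (k : G)⁻¹ :=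
    fun p => ⟨X p, hmem p⟩
  have hF : Function.Bijective F := by
    constructor
    · intro p p' he
      have e' : L p.1 * V p = L p'.1 * V p' := congrArg Subtype.val he
      have hact : ∀ p y, hA.fr.act (L (Prod.fst (p : P × Bool)) * V p) y = rho q8 b8 s8 p.1.1.1 y :=
        fun p y => by
          rw [hA.fr.act_mul (hL p.1).1.1 (h.ci.comm _ (hV p).1), hA.fr.act_of_mem (hV p).1, (hL p.1).2.2]
      have e1 : p.1.1.1 = p'.1.1.1 := hp.rho_inj (hL p.1).2.1 (hL p'.1).2.1 (by
        rw [← hact, ← hact, e'])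
      obtain ⟨⟨⟨w, q1⟩, hq1⟩, i⟩ := p
      obtain ⟨⟨⟨w', q2⟩, hq2⟩, i'⟩ := p'
      simp only at e1
      subst e1
      have e2 : V (⟨(w, q1), hq1⟩, i) = V (⟨(w, q2), hq2⟩, i') := mul_left_cancel e'
      have e3 := congrArg φ e2
      rw [(hV _).2, (hV _).2] at e3
      simp only at e3
      subst e3
      have e4 : cond i z 1 = cond i' z 1 := mul_left_cancel e2
      cases i <;> cases i' <;> first | rfl | exact absurd e4 h.ci.ne_one | exact absurd e4.symm h.ci.ne_one
    · rintro ⟨x, ⟨k, hk⟩, rfl⟩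
      obtain ⟨hkz, hk0⟩ := hk
      have hki : k⁻¹ * z = z * k⁻¹ := (Commute.inv_left hkz).eq
      set x := k * t * k⁻¹ with hx
      have hxz : x * z = z * x := h.conj_comm_z hkz htz
      have hx2 : x * x = 1 := by
        rw [hx, show k * t * k⁻¹ * (k * t * k⁻¹) = k * (t * t) * k⁻¹ by group, ht2]; group
      have hxQ : x ∉ Q := fun hm => htQ (by
        have := h.inv_conj_memQ hkz hm
        rwa [hx, show k⁻¹ * (k * t * k⁻¹) * k = t by group] at this)
      have hxn : ¬ NearQ z Q x := fun hn => htn (by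
        have := h.nearQ_conj hki hn
        rwa [hx, show k⁻¹ * (k * t * k⁻¹) * k⁻¹⁻¹ = t by group] at this)
      have hconj : ∀ y, hA.fr.act x (hA.fr.act k y) = hA.fr.act k (rho q8 b8 s8 wt y) := fun y => by
        rw [← htact, hx, hA.fr.act_conj hkz htz]
      have hks : ∀ y, b8 (hA.fr.act k y) s8 = b8 y s8 := fun y => by
        have e1 := hA.fr.act_B hkz y s8
        rwa [hk0] at e1
      obtain ⟨w, u, v, hxe, hu, hw0, hv, hvs, hvw, hvq, hact⟩ := hA.decompose hxz hx2 hxQ
        (by
          have e1 := hconj s8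
          rwa [hp.rho_s _ hwt, hk0] at e1)
        (fun y hy => by
          obtain ⟨y', rfl⟩ : ∃ y', hA.fr.act k y' = y := ⟨_, hA.fr.act_act_inv hkz y⟩
          rw [hks] at hy
          rw [hconj, hp.rho_of_perp _ hy]
          rcases z2 (b8 y' wt) with r | r <;> rw [r]
          · left; simp
          · right; rw [one_smul, hA.fr.act_add hkz, hk0])
      have hwe : q8 w = e := by
        have hd := disp_conj hA htz hkz f8
        rw [← hx, hact, htact, disp_rho hA hu.2.1, disp_rho hA hwt, hks, hp.bfs, one_mul, one_mul,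
          hwte] at hd
        exact hd
      obtain ⟨d, hd, hdec⟩ := hp.decomp (φ v)
      rw [(hA.img_comm hv).1 hvs, zero_smul, add_zero] at hdec
      obtain ⟨a0, hdec⟩ : ∃ a0, φ v = a0 • s8 + d := ⟨_, hdec⟩
      have hnd : e = 0 → d ≠ 0 ∧ d ≠ w := fun he => by
        obtain ⟨n, hn, -, hnw⟩ := hA.md.neighbour w hu.2.1 hw0 (hwe.trans he)
        constructor <;> intro r <;> refine hxn (hxe ▸ ?_)
        · exact hA.near_of_part (α := a0) (β := 0) hu hv (hxe ▸ hxQ) (hwe.trans he) hn
            ((hqf.symm n w).trans hnw) (by rw [hdec, r]; simp)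
        · exact hA.near_of_part (α := a0) (β := 1) hu hv (hxe ▸ hxQ) (hwe.trans he) hn
            ((hqf.symm n w).trans hnw) (by rw [hdec, r]; simp)
      have hL' := (hA.exists_lift hu.2.1).choose_spec
      obtain ⟨j, hj, hje⟩ := hA.hasW_congr hL' hu
      have hjQ : j ∈ Q := by
        rcases hj with rfl | rfl | rfl | rfl
        · exact one_mem _
        · exact h.ci.mem
        · exact hA.mem
        · exact mul_mem hA.mem h.ci.mem
      obtain ⟨α, hα⟩ : ∃ α, φ (j * v) = α • s8 + d := by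
        rw [h.map_mul _ hjQ _ hv, hdec]
        rcases hA.inter_img hjQ (hA.X_memS hj) with r | r <;> rw [r]
        · exact ⟨a0, zero_add _⟩
        · exact ⟨1 + a0, by rw [add_smul, one_smul]; abel⟩
      have hqd : q8 d = e := by
        rw [← hwe, ← hvq]
        conv_rhs => rw [hdec, hp.q_smul_s_add _ hd.1]
      have hbd : b8 d w = e := by
        rw [← hwe, ← hvw]
        conv_rhs => rw [hdec]
        simp [hqf.symm s8 w, hu.2.1.1]
      let p : P := ⟨(w, φ (j * v)), ⟨hu.2.1, hw0, hwe⟩, by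
        refine ⟨?_, ?_, ?_, fun he => ?_⟩ <;> simp only [hα]
        · simp [hd.1, hqf.self]
        · rw [hp.q_smul_s_add _ hd.1, hqd]
        · simp [hqf.symm s8 w, hu.2.1.1, hbd]
        · have e1 : b8 (α • s8 + d) f8 = α := by simp [hp.bsf, hd.2]
          rw [e1, add_comm (α • s8) d, add_assoc, add_self', add_zero]
          exact hnd he⟩
      obtain ⟨hm, hme⟩ := (h.map_surj (φ (j * v))).choose_spec
      rcases h.eq_or_of_map_eq (mul_mem hjQ hv) hm hme.symm with r | r
      · refine ⟨(p, false), Subtype.ext ?_⟩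
        show L p * ((h.map_surj (φ (j * v))).choose * 1) = x
        rw [mul_one, ← r, hxe, hje, mul_assoc]
      · refine ⟨(p, true), Subtype.ext ?_⟩
        show L p * ((h.map_surj (φ (j * v))).choose * z) = x
        rw [← r, hxe, hje, mul_assoc]
  rw [← Nat.card_congr (Equiv.ofBijective F hF), Nat.card_prod, count_pairs,
    Nat.card_eq_fintype_card (α := Bool), Fintype.card_bool]

end Cfsg.Agent.Co1Type
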