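import Cfsg.Agent.Co1Type.Space
import Cfsg.Agent.Co1Type.Axis

/-!
Involutions with a singular axis in a group of Conway type.
-/

set_option autoImplicit false
set_option maxRecDepth 100000
set_option synthInstance.maxSize 4000

namespace Cfsg.Agent.Co1Type

open Cfsg.Agent.ExtraTwo Cfsg.Agent.LargeExtra Cfsg.Agent.TTClass.OrthF2

/-- A vector orthogonal to `wa` but not to `da`. -/
def na : V8 := mk8 0 0 0 0 0 0 1 0

/-- A vector not orthogonal to `wa`. -/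
def ma : V8 := mk8 0 0 0 0 0 1 0 0

theorem aux_a : perp2 b8 s8 f8 na ∧ b8 na wa = 0 ∧ b8 na da = 1 ∧ perp2 b8 s8 f8 ma ∧
    b8 ma wa = 1 ∧ b8 s8 wa = 0 ∧ b8 s8 da = 0 ∧ b8 na s8 = 0 := by
  unfold perp2; decide +kernel

theorem aux_c : b8 wc wc = 0 ∧ b8 wc dc = 1 ∧ b8 dc wc = 1 ∧ b8 s8 wc = 0 ∧ b8 s8 dc = 0 := by
  decide +kernel

variable {G : Type*} [Group G] [Finite G] {z : G} {Q : Subgroup G} {φ : G → V8}
  {g s : G}

/-- The base elements of the two outer classes. -/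
structure Base (hA : At z Q q8 b8 φ s8 f8 g s) (a₁ v₁ a₂ v₂ : G) : Prop where
  ua : hA.HasW a₁ wa
  va : v₁ ∈ Q
  vad : φ v₁ = da
  yc : hA.HasW a₂ wc
  vc : v₂ ∈ Q
  vcd : φ v₂ = dc

variable {hA : At z Q q8 b8 φ s8 f8 g s}

omit [Finite G] in
theorem exists_base (hA : At z Q q8 b8 φ s8 f8 g s) [Finite G] :
    ∃ ua va yc vc, Base hA ua va yc vc := by
  obtain ⟨ua, hua⟩ := hA.exists_lift consts_a.1
  obtain ⟨yc, hyc⟩ := hA.exists_lift consts_c.1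
  obtain ⟨va, hva, hvad⟩ := hA.fr.map_surj da
  obtain ⟨vc, hvc, hvcd⟩ := hA.fr.map_surj dc
  exact ⟨ua, va, yc, vc, hua, hva, hvad, hyc, hvc, hvcd⟩

variable {ua va yc vc : G} (hb : Base hA ua va yc vc)
include hb

/-- Involutions fixing the axis `s8`. -/
theorem classify_fixed {x : G} (hx : x * z = z * x) (hx2 : x * x = 1) (hxQ : x ∉ Q)
    (hxs : hA.fr.act x s8 = s8)
    (htriv : ∀ a, b8 a s8 = 0 → hA.fr.act x a = a ∨ hA.fr.act x a = a + s8) :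
    NearQ z Q x ∨ ∃ c, c * z = z * c ∧ hA.fr.act c s8 = s8 ∧
      (c * x * c⁻¹ = ua * va ∨ c * x * c⁻¹ = yc * vc) := by
  have h := hA.fr
  have hqf := hA.md.hp.qf
  obtain ⟨w, u, v, rfl, hu, hw0, hv, hvs, hvw, hvq, -⟩ := hA.decompose hx hx2 hxQ hxs htriv
  obtain ⟨d, hd, hdec⟩ := hA.md.hp.decomp (φ v)
  rw [(hA.img_comm hv).1 hvs, zero_smul, add_zero] at hdec
  have hqd : q8 d = q8 w := by rw [← hvq, hdec, hA.md.hp.q_smul_s_add _ hd.1]
  have hBd : b8 d w = q8 w := by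
    rw [← hvw, hdec, map_add, LinearMap.add_apply, map_smul, LinearMap.smul_apply,
      hqf.symm s8 w, hu.2.1.1]
    simp
  obtain ⟨α, hdec⟩ : ∃ α, φ v = α • s8 + d := ⟨_, hdec⟩
  -- moving by an element fixing the frame
  have move : ∀ {u v : G} {w d : V8} {α : ZMod 2} {c : G}, hA.HasW u w → v ∈ Q →
      φ v = α • s8 + d → c * z = z * c → c * s = s * c → hA.fr.act c s8 = s8 →
      perp2 b8 s8 f8 (hA.fr.act c w) →
      ∃ u' v', c * (u * v) * c⁻¹ = u' * v' ∧ hA.HasW u' (hA.fr.act c w) ∧ v' ∈ Q ∧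
        φ v' = α • s8 + hA.fr.act c d := by
    intro u v w d α c hu hv hφ hc hcs hc0 hp
    refine ⟨c * u * c⁻¹, c * v * c⁻¹, by group, hA.hasW_conj hc hcs hc0 hp hu,
      h.conj_memQ hc hv, ?_⟩
    rw [← hA.fr.act_map hc hv, hφ, hA.fr.act_add hc, hA.fr.act_smul hc, hc0]
  rcases z2 (q8 w) with hq | hq
  · -- the singular case
    rw [hq] at hqd hBd
    obtain ⟨n, hn, -, hnw⟩ := hA.md.neighbour w hu.2.1 hw0 hq
    by_cases hd0 : d = 0 ∨ d = w
    · left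
      rcases hd0 with e | e
      · exact hA.near_of_part (α := α) (β := 0) hu hv hxQ hq hn
          ((hqf.symm n w).trans hnw) (by rw [hdec, e, zero_smul, add_zero])
      · exact hA.near_of_part (α := α) (β := 1) hu hv hxQ hq hn
          ((hqf.symm n w).trans hnw) (by rw [hdec, e, one_smul])
    · right
      push Not at hd0
      obtain ⟨pwa, pda, qwa, qda, bdw, wa0, da0, dawa⟩ := consts_a
      obtain ⟨c₁, hc₁, hc₁s, hc₁0, hc₁f, hc₁w, -⟩ := hA.exists_move (fun t ht => ht)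
        (hA.md.transD w wa hu.2.1 pwa hw0 wa0 (hq.trans qwa.symm))
      obtain ⟨u₁, v₁, e₁, hu₁, hv₁, hv₁φ⟩ := move hu hv hdec hc₁ hc₁s hc₁0 (by rw [hc₁w]; exact pwa)
      rw [hc₁w] at hu₁
      set d₁ := hA.fr.act c₁ d with hd₁
      have hd₁p : perp2 b8 s8 f8 d₁ := by
        refine ⟨?_, ?_⟩
        · have e := hA.fr.act_B hc₁ d s8
          rw [hc₁0] at e; exact e.trans hd.1
        · have e := hA.fr.act_B hc₁ d f8
          rw [hc₁f] at e; exact e.trans hd.2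
      have hd₁q : q8 d₁ = 0 := (hA.fr.act_q hc₁ d).trans hqd
      have hd₁w : b8 d₁ wa = 0 := by rw [← hc₁w, hd₁, hA.fr.act_B hc₁, hBd]
      have hd₁0 : d₁ ≠ 0 := fun e => hd0.1 (by
        rw [← hA.fr.act_inv_act hc₁ d, ← hd₁, e]
        have := hA.fr.act_smul (Commute.inv_left hc₁).eq 0 0
        simpa using this)
      have hd₁1 : d₁ ≠ wa := fun e => hd0.2 (by
        rw [← hA.fr.act_inv_act hc₁ d, ← hd₁, e, ← hc₁w, hA.fr.act_inv_act hc₁])
      obtain ⟨c₂, hc₂, hc₂s, hc₂0, -, hc₂d, hfix⟩ := hA.exists_move (fun u hu => hu.1)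
        (orb_symm (orb_fixA hd₁p hd₁q hd₁w hd₁0 hd₁1))
      have hc₂w : hA.fr.act c₂ wa = wa := hfix wa fun u hu => by rw [hqf.symm]; exact hu.2
      obtain ⟨u₂, v₂, e₂, hu₂, hv₂, hv₂φ⟩ := move hu₁ hv₁ hv₁φ hc₂ hc₂s hc₂0 (by rw [hc₂w]; exact pwa)
      rw [hc₂w] at hu₂
      rw [hc₂d] at hv₂φ
      obtain ⟨n1, n2, n3, m1, m2, -⟩ := aux_a
      obtain ⟨c₃, hc₃, hc₃0, e₃⟩ := hA.conj_std (α := α) (β := 0) hu₂ hb.ua hv₂ hb.va hb.vad m1 m2 n1 n2 n3
        (by rw [hv₂φ, zero_smul, add_zero])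
      refine ⟨c₃ * (c₂ * c₁), h.mul_comm_z hc₃ (h.mul_comm_z hc₂ hc₁), ?_, Or.inl ?_⟩
      · rw [hA.fr.act_mul hc₃ (h.mul_comm_z hc₂ hc₁), hA.fr.act_mul hc₂ hc₁, hc₁0, hc₂0, hc₃0]
      · rw [← e₃, ← e₂, ← e₁]; group
  · -- the non-singular case
    right
    rw [hq] at hqd hBd
    obtain ⟨pwc, pdc, qwc, qdc, bdw, wc0⟩ := consts_c
    obtain ⟨c₁, hc₁, hc₁s, hc₁0, hc₁f, hc₁w, -⟩ := hA.exists_move (fun t ht => ht)
      (hA.md.transD w wc hu.2.1 pwc hw0 wc0 (hq.trans qwc.symm))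
    obtain ⟨u₁, v₁, e₁, hu₁, hv₁, hv₁φ⟩ := move hu hv hdec hc₁ hc₁s hc₁0 (by rw [hc₁w]; exact pwc)
    rw [hc₁w] at hu₁
    set d₁ := hA.fr.act c₁ d with hd₁
    have hd₁p : perp2 b8 s8 f8 d₁ := by
      refine ⟨?_, ?_⟩
      · have e := hA.fr.act_B hc₁ d s8
        rw [hc₁0] at e; exact e.trans hd.1
      · have e := hA.fr.act_B hc₁ d f8
        rw [hc₁f] at e; exact e.trans hd.2
    have hd₁q : q8 d₁ = 1 := (hA.fr.act_q hc₁ d).trans hqd
    have hd₁w : b8 d₁ wc = 1 := by rw [← hc₁w, hd₁, hA.fr.act_B hc₁, hBd]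
    obtain ⟨β, hβ⟩ : ∃ β : ZMod 2,
        Orb q8 b8 (fun u => perp2 b8 s8 f8 u ∧ b8 u wc = 0) dc (d₁ + β • wc) := by
      rcases orb_fixC hd₁p hd₁q hd₁w with e | e
      · exact ⟨0, by simpa using e⟩
      · exact ⟨1, by simpa using e⟩
    obtain ⟨c₂, hc₂, hc₂s, hc₂0, -, hc₂d, hfix⟩ := hA.exists_move (fun u hu => hu.1) (orb_symm hβ)
    have hc₂w : hA.fr.act c₂ wc = wc := hfix wc fun u hu => by rw [hqf.symm]; exact hu.2
    obtain ⟨u₂, v₂, e₂, hu₂, hv₂, hv₂φ⟩ := move hu₁ hv₁ hv₁φ hc₂ hc₂s hc₂0 (by rw [hc₂w]; exact pwc)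
    rw [hc₂w] at hu₂
    have hd₂ : hA.fr.act c₂ d₁ = dc + β • wc := by
      rw [← hc₂d, hA.fr.act_add hc₂, hA.fr.act_smul hc₂, hc₂w, add_assoc, add_self', add_zero]
    obtain ⟨c₃, hc₃, hc₃0, e₃⟩ := hA.conj_std (α := α) (β := β) hu₂ hb.yc hv₂ hb.vc hb.vcd pdc bdw pwc
      aux_c.1 aux_c.2.1 (by rw [hv₂φ, hd₂, add_assoc])
    refine ⟨c₃ * (c₂ * c₁), h.mul_comm_z hc₃ (h.mul_comm_z hc₂ hc₁), ?_, Or.inr ?_⟩
    · rw [hA.fr.act_mul hc₃ (h.mul_comm_z hc₂ hc₁), hA.fr.act_mul hc₂ hc₁, hc₁0, hc₂0, hc₃0]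
    · rw [← e₃, ← e₂, ← e₁]; group

/-- An involution with a singular axis is near or conjugate to a base one. -/
theorem classify_axis {x : G} (hx : x * z = z * x) (hx2 : x * x = 1) (hxQ : x ∉ Q) {a : V8}
    (hqa : q8 a = 0) (ha0 : a ≠ 0) (hxa : hA.fr.act x a = a)
    (htr : ∀ t, b8 t a = 0 → hA.fr.act x t = t ∨ hA.fr.act x t = t + a) :
    NearQ z Q x ∨ ∃ c, c * z = z * c ∧ hA.fr.act c a = s8 ∧
      (c * x * c⁻¹ = ua * va ∨ c * x * c⁻¹ = yc * vc) := by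
  have h := hA.fr
  obtain ⟨c, hc, hca, -⟩ := h.lift_orb (orb_symm (hA.md.trans a hqa ha0))
  have hci : c⁻¹ * z = z * c⁻¹ := (Commute.inv_left hc).eq
  have key := classify_fixed hb (h.conj_comm_z hc hx)
    (by rw [show c * x * c⁻¹ * (c * x * c⁻¹) = c * (x * x) * c⁻¹ by group, hx2]; group)
    (fun e => hxQ (by
      have := h.inv_conj_memQ hc e
      rwa [show c⁻¹ * (c * x * c⁻¹) * c = x by group] at this))
    (by
      show h.act (c * x * c⁻¹) s8 = s8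
      rw [← hca, h.act_conj hc hx, hxa])
    (fun t ht => by
      rw [← h.act_act_inv hc t, ← hca, h.act_B hc] at ht
      have e := htr _ ht
      show h.act (c * x * c⁻¹) t = t ∨ h.act (c * x * c⁻¹) t = t + s8
      rw [← h.act_act_inv hc t, ← hca, h.act_conj hc hx, ← h.act_add hc]
      exact e.imp (congrArg _) (congrArg _))
  rcases key with hn | ⟨c', hc', hc'0, he⟩
  · left
    have := h.nearQ_conj hci hn
    rwa [show c⁻¹ * (c * x * c⁻¹) * c⁻¹⁻¹ = x by group] at this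
  · refine Or.inr ⟨c' * c, h.mul_comm_z hc' hc, by rw [hA.fr.act_mul hc' hc, hca, hc'0], ?_⟩
    rw [show c' * c * x * (c' * c)⁻¹ = c' * (c * x * c⁻¹) * c'⁻¹ by group]
    exact he

/-- The properties of the base involution with singular vector. -/
theorem base_a : ua * va * z = z * (ua * va) ∧ ua * va * (ua * va) = 1 ∧ ua * va ∉ Q ∧
    (∀ t, hA.fr.act (ua * va) t = rho q8 b8 s8 wa t) ∧ ¬ NearQ z Q (ua * va) := by
  obtain ⟨pwa, pda, qwa, qda, bdw, wa0, -, -⟩ := consts_a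
  obtain ⟨n1, n2, n3, m1, m2, hs1, hs2, n4⟩ := aux_a
  have h := hA.fr
  have hvz := h.ci.comm va hb.va
  have hvs : va * s = s * va := (hA.img_comm hb.va).2 (by rw [hb.vad]; exact pda.1)
  have hz : ua * va * z = z * (ua * va) := h.mul_comm_z hb.ua.1.1 hvz
  have hsq : ua * va * (ua * va) = 1 := by
    have hc := hA.commute_of_perp hb.va hvs hb.ua (by rw [hb.vad]; exact bdw)
    rw [show ua * va * (ua * va) = ua * (va * ua) * va by group, hc,
      show ua * (ua * va) * va = ua * ua * (va * va) by group, (hA.sq_iff hb.ua).2 qwa, one_mul]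
    exact (h.map_sq va hb.va).2 (by rw [hb.vad]; exact qda)
  have hact : ∀ t, hA.fr.act (ua * va) t = rho q8 b8 s8 wa t := fun t => by
    rw [hA.fr.act_mul hb.ua.1.1 hvz, hA.fr.act_of_mem hb.va, hb.ua.2.2]
  have hQ : ua * va ∉ Q := fun e => by
    have := hA.fr.act_of_mem e ma
    rw [hact, hA.md.hp.rho_of_perp _ m1.1, m2, one_smul, add_eq_left] at this
    exact absurd this (fun e' => by simpa [e'] using hA.md.hp.bsf)
  refine ⟨hz, hsq, hQ, hact, fun hn => ?_⟩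
  obtain ⟨p, hp, hpn⟩ := h.map_surj na
  have hfix : hA.fr.act (ua * va) (φ p) = φ p := by
    rw [hact, hpn, hA.md.hp.rho_of_perp _ n1.1, n2, zero_smul, add_zero]
  have hcm := hA.fix_comm_of_nearQ hz hQ hn hsq hp hfix
  have hps : p * s = s * p := (hA.img_comm hp).2 (by rw [hpn]; exact n1.1)
  have hpu := hA.commute_of_perp hp hps hb.ua (by rw [hpn, n2])
  rw [← mul_assoc, hpu, mul_assoc, mul_assoc, mul_right_inj] at hcm
  have e := (h.map_comm p hp va hb.va).1 hcm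
  rw [hpn, hb.vad, n3] at e
  exact one_ne_zero e

/-- The properties of the base involution with non-singular vector. -/
theorem base_c : yc * vc * z = z * (yc * vc) ∧ yc * vc * (yc * vc) = 1 ∧ yc * vc ∉ Q ∧
    (∀ t, hA.fr.act (yc * vc) t = rho q8 b8 s8 wc t) ∧ ¬ NearQ z Q (yc * vc) := by
  obtain ⟨pwc, pdc, qwc, qdc, bdw, wc0⟩ := consts_c
  have h := hA.fr
  have hvz := h.ci.comm vc hb.vc
  have hvs : vc * s = s * vc := (hA.img_comm hb.vc).2 (by rw [hb.vcd]; exact pdc.1)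
  have hz : yc * vc * z = z * (yc * vc) := h.mul_comm_z hb.yc.1.1 hvz
  have hsq : yc * vc * (yc * vc) = 1 :=
    hA.sq_uv hb.yc hb.vc hvs qwc (by rw [hb.vcd, bdw]) (by rw [hb.vcd, qdc])
  have hact : ∀ t, hA.fr.act (yc * vc) t = rho q8 b8 s8 wc t := fun t => by
    rw [hA.fr.act_mul hb.yc.1.1 hvz, hA.fr.act_of_mem hb.vc, hb.yc.2.2]
  have hq : q8 (hA.fr.act (yc * vc) f8 + f8) = 1 := by
    rw [hact, hA.md.hp.rho_f pwc, qwc, one_smul, add_comm _ f8, add_assoc f8, add_left_self,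
      hA.md.hp.qf.add, qwc, hA.md.hp.qs, pwc.1]
    rfl
  refine ⟨hz, hsq, fun e => ?_, hact, fun hn => ?_⟩
  · rw [hA.fr.act_of_mem e, add_self', hA.md.hp.qf.zero] at hq
    exact zero_ne_one hq
  · rw [hA.alt_of_nearQ hz hsq hn] at hq
    exact zero_ne_one hq

end Cfsg.Agent.Co1Type
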